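import Cfsg.Agent.OddHalf.NI.Mult
import Cfsg.Agent.S0262
import Cfsg.Agent.S0242
import Cfsg.Agent.LieClassical.SLGen
import Cfsg.Agent.H928.Ore.Frame

/-!
Central extensions by `r`-groups, `r ≠ p` (S2491, S2492, piece C4).

* `hom_eq` : homomorphisms from a perfect group which agree modulo a central kernel are equal;
* `exists_lift` : a homomorphism from a group which is generated by elements of order `p` and has cyclic Sylow
  `r`-subgroups lifts through a central extension by an `r`-group, `r ≠ p`;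
* `cyc_two`, `cyc_three` : the Sylow 3-subgroups of `SL₂(F)`, and of `SL₃(F)`, `|F| ≡ 2 mod 3`;
* `eq_of_pow`, `nf_lift`, `isPGroup_UN` : lifted root group data.
-/

set_option autoImplicit false
set_option linter.unusedSectionVars false

namespace Cfsg.Agent.H231.QS.Lift

open Cfsg.Agent.Nodes.RGDLift
open scoped commutatorElement

/-- homomorphisms from a perfect group which agree modulo a central kernel are equal -/
theorem hom_eq {S E Y : Type*} [Group S] [Group E] [Group Y] (hS : commutator S = ⊤) {f : E →* Y}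
    (hc : f.ker ≤ Subgroup.center E) {a b : S →* E} (h : ∀ g, f (a g) = f (b g)) : a = b := by
  have hz : ∀ g, ∃ z ∈ Subgroup.center E, b g = a g * z := fun g =>
    ⟨(a g)⁻¹ * b g, hc (by rw [MonoidHom.mem_ker, map_mul, map_inv, h g, inv_mul_cancel]), by group⟩
  have h1 : commutator S ≤ MonoidHom.eqLocus a b := by
    rw [commutator_def, Subgroup.commutator_le]
    intro g _ k _
    obtain ⟨z, hz1, hz2⟩ := hz g
    obtain ⟨w, hw1, hw2⟩ := hz k
    have hz' : ∀ x, z * x = x * z := fun x => (Subgroup.mem_center_iff.1 hz1 x).symm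
    have hw' : ∀ x, w * x = x * w := fun x => (Subgroup.mem_center_iff.1 hw1 x).symm
    change a ⁅g, k⁆ = b ⁅g, k⁆
    rw [map_commutatorElement, map_commutatorElement, hz2, hw2]
    simp only [commutatorElement_def, mul_inv_rev]
    symm
    calc a g * z * (a k * w) * (z⁻¹ * (a g)⁻¹) * (w⁻¹ * (a k)⁻¹)
        = a g * (z * (a k * w)) * z⁻¹ * (a g)⁻¹ * w⁻¹ * (a k)⁻¹ := by group
      _ = a g * a k * (w * (a g)⁻¹) * w⁻¹ * (a k)⁻¹ := by rw [hz']; group
      _ = a g * a k * (a g)⁻¹ * (a k)⁻¹ := by rw [hw']; group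
  rw [hS] at h1
  exact MonoidHom.ext fun g => h1 (Subgroup.mem_top g)

/-- central `r`-elements of the commutator subgroup are trivial if the Sylow `r`-subgroups are abelian -/
theorem eq_one_of_transfer {D : Type*} [Group D] [Finite D] {r : ℕ} [Fact r.Prime] (Q : Sylow r D)
    (hQ : ∀ a ∈ (Q : Subgroup D), ∀ b ∈ (Q : Subgroup D), a * b = b * a) {x : D} (hx : x ∈ Subgroup.center D)
    (hx' : x ∈ commutator D) {k : ℕ} (hk : x ^ r ^ k = 1) : x = 1 := by
  let _ : CommGroup ↥(Q : Subgroup D) :=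
    { (inferInstance : Group ↥(Q : Subgroup D)) with mul_comm := fun a b => Subtype.ext (hQ _ a.2 _ b.2) }
  have h1 := MonoidHom.transfer_eq_pow (MonoidHom.id ↥(Q : Subgroup D)) x (fun k g₀ _ => by
    have h2 : ∀ k, g₀⁻¹ * x ^ k * g₀ = x ^ k := fun k => by
      have h3 := Subgroup.mem_center_iff.1 (Subgroup.pow_mem _ hx k) g₀⁻¹
      rw [h3]; group
    exact h2 k)
  have h2 : (MonoidHom.transfer (MonoidHom.id ↥(Q : Subgroup D))) x = 1 :=
    Abelianization.commutator_subset_ker _ hx'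
  rw [h2] at h1
  have h3 : x ^ (Q : Subgroup D).index = 1 := (congrArg Subtype.val h1).symm
  have hc : ((Q : Subgroup D).index).Coprime (r ^ k) := by
    refine Nat.Coprime.pow_right k ?_
    rw [Nat.coprime_comm, Nat.Prime.coprime_iff_not_dvd Fact.out]
    exact Q.not_dvd_index
  have h4 : orderOf x ∣ 1 := by
    rw [← hc]
    exact Nat.dvd_gcd (orderOf_dvd_of_pow_eq_one h3) (orderOf_dvd_of_pow_eq_one hk)
  exact orderOf_eq_one_iff.1 (Nat.dvd_one.1 h4)

/-- **Lifting.** -/
theorem exists_lift {S E Y : Type*} [Group S] [Finite S] [Group E] [Finite E] [Group Y] {p r : ℕ} [Fact p.Prime]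
    [Fact r.Prime] (hpr : p ≠ r) {f : E →* Y} (hs : Function.Surjective f) (hc : f.ker ≤ Subgroup.center E)
    (hr : IsPGroup r f.ker) (s : S →* Y) (hgen : Subgroup.closure {g : S | g ^ p = 1} = ⊤)
    (hcyc : ∀ P : Sylow r S, IsCyclic (P : Subgroup S)) : ∃ s' : S →* E, f.comp s' = s := by
  classical
  have hker : (Nat.card f.ker).Coprime p := by
    obtain ⟨k, hk⟩ := IsPGroup.iff_card.1 hr
    rw [hk]
    exact Nat.Coprime.pow_left k ((Nat.coprime_primes Fact.out Fact.out).2 (Ne.symm hpr))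
  let D : Subgroup (S × E) := Subgroup.closure {y | s y.1 = f y.2 ∧ y ^ p = 1}
  have hD : ∀ y ∈ D, s y.1 = f y.2 := by
    intro y hy
    have h1 : D ≤ MonoidHom.eqLocus (s.comp (MonoidHom.fst S E)) (f.comp (MonoidHom.snd S E)) := by
      rw [Subgroup.closure_le]
      exact fun y hy => hy.1
    exact h1 hy
  let π : D →* S := (MonoidHom.fst S E).comp D.subtype
  have hkerπ : ∀ x : D, π x = 1 → f x.1.2 = 1 := by
    intro x hx
    have h1 := hD _ x.2
    have h3 : x.1.1 = 1 := hx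
    rw [h3, map_one] at h1
    exact h1.symm
  have hcen : π.ker ≤ Subgroup.center D := by
    intro x hx
    rw [Subgroup.mem_center_iff]
    intro y
    have h1 : x.1.1 = 1 := hx
    have h3 := Subgroup.mem_center_iff.1 (hc (hkerπ x hx)) y.1.2
    apply Subtype.ext
    apply Prod.ext
    · show y.1.1 * x.1.1 = x.1.1 * y.1.1
      rw [h1, one_mul, mul_one]
    · exact h3
  have hpow : ∀ x : D, π x = 1 → ∃ k : ℕ, x ^ r ^ k = 1 := by
    intro x hx
    obtain ⟨k, hk⟩ := hr ⟨x.1.2, hkerπ x hx⟩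
    have hk' : x.1.2 ^ r ^ k = 1 := by simpa using congrArg Subtype.val hk
    refine ⟨k, Subtype.ext ?_⟩
    have h1 : x.1.1 = 1 := hx
    apply Prod.ext
    · show x.1.1 ^ r ^ k = 1
      rw [h1, one_pow]
    · exact hk'
  -- the abelianization of `D` has exponent dividing `p`
  have hab : ∀ y : D, y ^ p ∈ commutator D := by
    have h1 : (⊤ : Subgroup D) ≤ ((powMonoidHom p : Abelianization D →* Abelianization D).comp
        Abelianization.of).ker := by
      have h2 : Subgroup.closure {y : D | s y.1.1 = f y.1.2 ∧ y ^ p = 1} = ⊤ := by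
        apply Subgroup.map_injective D.subtype_injective
        rw [MonoidHom.map_closure, ← MonoidHom.range_eq_map, Subgroup.range_subtype]
        change _ = Subgroup.closure _
        congr 1
        ext y
        constructor
        · rintro ⟨k, ⟨h3, h4⟩, rfl⟩
          exact ⟨h3, by rw [← map_pow, h4, map_one]⟩
        · intro hy
          exact ⟨⟨y, Subgroup.subset_closure hy⟩, ⟨hy.1, Subtype.ext hy.2⟩, rfl⟩
      rw [← h2, Subgroup.closure_le]
      intro y hy
      change (Abelianization.of y) ^ p = 1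
      rw [← map_pow, hy.2, map_one]
    intro y
    have h2 := h1 (Subgroup.mem_top y)
    have h3 : Abelianization.of (y ^ p) = 1 := by
      rw [map_pow]
      exact h2
    rwa [← MonoidHom.mem_ker, Abelianization.ker_of] at h3
  have hinj : Function.Injective π := by
    rw [injective_iff_map_eq_one]
    intro x hx
    obtain ⟨k, hk⟩ := hpow x hx
    obtain ⟨Q⟩ : Nonempty (Sylow r D) := inferInstance
    have hQ : ∀ a ∈ (Q : Subgroup D), ∀ b ∈ (Q : Subgroup D), a * b = b * a := by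
      have h1 : IsPGroup r ((Q : Subgroup D).map π) := Q.isPGroup'.map π
      obtain ⟨P, hP⟩ := h1.exists_le_sylow
      have h2 := hcyc P
      have h3 : ∀ y : ↥(Q : Subgroup D), (π.comp (Q : Subgroup D).subtype) y ∈ (P : Subgroup S) := fun y =>
        hP ⟨y, y.2, rfl⟩
      let g : ↥(Q : Subgroup D) →* ↥(P : Subgroup S) := (π.comp (Q : Subgroup D).subtype).codRestrict _ h3
      have hg : g.ker ≤ Subgroup.center ↥(Q : Subgroup D) := by
        intro y hy
        have h4 : π (y : D) = 1 := congrArg Subtype.val hy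
        rw [Subgroup.mem_center_iff]
        intro z
        exact Subtype.ext (Subgroup.mem_center_iff.1 (hcen h4) z)
      intro a ha b hb
      have h5 := (MonoidHom.isMulCommutative_of_isCyclic_of_ker_le_center g hg).is_comm.comm ⟨a, ha⟩ ⟨b, hb⟩
      exact congrArg Subtype.val h5
    have h1 : x ^ p = 1 := by
      refine eq_one_of_transfer Q hQ (Subgroup.pow_mem _ (hcen hx) p) (hab x) (k := k) ?_
      rw [← pow_mul, mul_comm, pow_mul, hk, one_pow]
    have hc' : (p).Coprime (r ^ k) := Nat.Coprime.pow_right k ((Nat.coprime_primes Fact.out Fact.out).2 hpr)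
    have h4 : orderOf x ∣ 1 := by
      rw [← hc']
      exact Nat.dvd_gcd (orderOf_dvd_of_pow_eq_one h1) (orderOf_dvd_of_pow_eq_one hk)
    exact orderOf_eq_one_iff.1 (Nat.dvd_one.1 h4)
  have hsurj : Function.Surjective π := by
    rw [← MonoidHom.range_eq_top, eq_top_iff, ← hgen, Subgroup.closure_le]
    intro g hg
    have hg' : g ^ p = 1 := hg
    obtain ⟨y, hy⟩ := hs (s g)
    obtain ⟨x, hx, hxk⟩ := Cfsg.Agent.Nodes.RGDLift.exists_lift (f := f) hker (y := y) (k := 1) (by
      rw [pow_one, hy, ← map_pow, hg', map_one])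
    rw [pow_one] at hxk
    have h3 : ((g, x) : S × E) ∈ D := Subgroup.subset_closure ⟨by
      show s g = f x
      rw [hx, hy], Prod.ext hg' hxk⟩
    exact ⟨⟨_, h3⟩, rfl⟩
  let e : D ≃* S := MulEquiv.ofBijective π ⟨hinj, hsurj⟩
  refine ⟨((MonoidHom.snd _ _).comp D.subtype).comp e.symm.toMonoidHom, ?_⟩
  ext g
  show f (e.symm g).1.2 = s g
  rw [← hD _ (e.symm g).2]
  have h1 : π (e.symm g) = g := e.apply_symm_apply g
  exact congrArg s h1

/-! ### `SL₂` and `SL₃` -/

section SL

variable {F : Type*} [Field F] [Finite F] {p : ℕ} [Fact p.Prime]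

theorem charP_of (h0 : (p : F) = 0) : CharP F p := by
  obtain ⟨r, hr⟩ := CharP.exists F
  have hrp : r.Prime := (CharP.char_is_prime_or_zero F r).resolve_right (CharP.char_ne_zero_of_finite F r)
  have h1 : r ∣ p := (CharP.cast_eq_zero_iff F r p).1 h0
  rw [← (Nat.prime_dvd_prime_iff_eq hrp Fact.out).1 h1]
  exact hr

theorem tv_pow (h0 : (p : F) = 0) {n : ℕ} {a b : Fin n} (hab : a ≠ b) (c : F) :
    (Matrix.SpecialLinearGroup.transvection hab c) ^ p = 1 := by
  have h1 : ∀ k : ℕ, (Matrix.SpecialLinearGroup.transvection hab c) ^ k =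
      Matrix.SpecialLinearGroup.transvection hab ((k : F) * c) := by
    intro k
    induction k with
    | zero =>
      apply Subtype.ext
      rw [pow_zero, Nat.cast_zero, zero_mul]
      exact (Matrix.transvection_zero a b).symm
    | succ k ih =>
      rw [pow_succ, ih]
      apply Subtype.ext
      change Matrix.transvection a b ((k : F) * c) * Matrix.transvection a b c = Matrix.transvection a b _
      rw [Matrix.transvection_mul_transvection_same a b hab]
      congr 1
      push_cast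
      ring
  rw [h1, h0, zero_mul]
  exact Subtype.ext (Matrix.transvection_zero a b)

/-- `SL_n(F)` is generated by elements of order `p` -/
theorem closure_pow (h0 : (p : F) = 0) {n : ℕ} :
    Subgroup.closure {g : Matrix.SpecialLinearGroup (Fin n) F | g ^ p = 1} = ⊤ := by
  rw [eq_top_iff, ← Cfsg.Agent.LieClassical.SLGen.closure_transvections, Subgroup.closure_le]
  rintro _ ⟨a, b, hab, c, rfl⟩
  exact Subgroup.subset_closure (tv_pow h0 hab c)

/-- the embedding of `SL₂` in `SL₃` -/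
def emb : Matrix.SpecialLinearGroup (Fin 2) F →* Matrix.SpecialLinearGroup (Fin 3) F where
  toFun B := ⟨!![B.1 0 0, B.1 0 1, 0; B.1 1 0, B.1 1 1, 0; 0, 0, 1], by
    have h := B.2
    rw [Matrix.det_fin_two] at h
    rw [Matrix.det_fin_three]
    simp only [Matrix.of_apply, Matrix.cons_val', Matrix.cons_val_zero, Matrix.cons_val_one, Matrix.cons_val]
    linear_combination h⟩
  map_one' := by
    apply Subtype.ext
    change !![(1 : Matrix (Fin 2) (Fin 2) F) 0 0, (1 : Matrix (Fin 2) (Fin 2) F) 0 1, 0;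
      (1 : Matrix (Fin 2) (Fin 2) F) 1 0, (1 : Matrix (Fin 2) (Fin 2) F) 1 1, 0; 0, 0, 1] = (1 : Matrix (Fin 3) (Fin 3) F)
    rw [Matrix.one_fin_three]
    simp
  map_mul' A B := by
    apply Subtype.ext
    change !![(A.1 * B.1) 0 0, (A.1 * B.1) 0 1, 0; (A.1 * B.1) 1 0, (A.1 * B.1) 1 1, 0; 0, 0, 1] =
      !![A.1 0 0, A.1 0 1, 0; A.1 1 0, A.1 1 1, 0; 0, 0, 1] * !![B.1 0 0, B.1 0 1, 0; B.1 1 0, B.1 1 1, 0; 0, 0, 1]
    rw [Matrix.mul_fin_three]
    simp [Matrix.mul_apply, Fin.sum_univ_two]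

omit [Finite F] in
theorem emb_injective : Function.Injective (emb (F := F)) := by
  intro A B h
  have h1 : !![A.1 0 0, A.1 0 1, 0; A.1 1 0, A.1 1 1, 0; 0, 0, 1] =
    !![B.1 0 0, B.1 0 1, 0; B.1 1 0, B.1 1 1, 0; 0, 0, (1 : F)] := congrArg Subtype.val h
  apply Subtype.ext
  ext i j
  fin_cases i <;> fin_cases j
  · exact congrFun (congrFun h1 0) 0
  · exact congrFun (congrFun h1 0) 1
  · exact congrFun (congrFun h1 1) 0
  · exact congrFun (congrFun h1 1) 1

theorem cyc_two (h0 : (p : F) = 0) (h3 : p ≠ 3) (P : Sylow 3 (Matrix.SpecialLinearGroup (Fin 2) F)) :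
    IsCyclic (P : Subgroup (Matrix.SpecialLinearGroup (Fin 2) F)) := by
  have := Fintype.ofFinite F
  have := charP_of h0
  have : Fact (Nat.Prime 3) := ⟨Nat.prime_three⟩
  exact Cfsg.Agent.S0262.result p 3 (by norm_num) (Ne.symm h3) P

theorem card_three : Nat.card (Matrix.SpecialLinearGroup (Fin 3) F) =
    (Nat.card F ^ 3 - 1) * Nat.card F ^ 2 * Nat.card (Matrix.SpecialLinearGroup (Fin 2) F) := by
  have := Fintype.ofFinite F
  have h2 := Cfsg.Agent.S0242.result (F := F) rfl 2 (by norm_num)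
  have h3 := Cfsg.Agent.S0242.result (F := F) rfl 3 (by norm_num)
  rw [← Nat.card_eq_fintype_card] at h2 h3
  have h1 : 1 < Nat.card F := Finite.one_lt_card
  obtain ⟨m, hm⟩ : ∃ m, Nat.card F = m + 2 := ⟨Nat.card F - 2, by omega⟩
  rw [hm] at h2 h3 ⊢
  rw [Fin.prod_univ_two] at h2
  rw [Fin.prod_univ_three] at h3
  have e0 : (m + 2) ^ 3 - (m + 2) ^ ((0 : Fin 3) : ℕ) = (m + 2) ^ 3 - 1 := by norm_num
  have e1 : (m + 2) ^ 3 - (m + 2) ^ ((1 : Fin 3) : ℕ) = (m + 1) * ((m + 2) * (m + 3)) := by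
    rw [Nat.sub_eq_iff_eq_add]
    · change _ = _ + (m + 2) ^ 1
      ring
    · exact Nat.pow_le_pow_right (by omega) (by decide)
  have e2 : (m + 2) ^ 3 - (m + 2) ^ ((2 : Fin 3) : ℕ) = (m + 1) * (m + 2) ^ 2 := by
    rw [Nat.sub_eq_iff_eq_add]
    · change _ = _ + (m + 2) ^ 2
      ring
    · exact Nat.pow_le_pow_right (by omega) (by decide)
  have f0 : (m + 2) ^ 2 - (m + 2) ^ ((0 : Fin 2) : ℕ) = (m + 1) * (m + 3) := by
    rw [Nat.sub_eq_iff_eq_add]
    · change _ = _ + (m + 2) ^ 0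
      ring
    · exact Nat.pow_le_pow_right (by omega) (by decide)
  have f1 : (m + 2) ^ 2 - (m + 2) ^ ((1 : Fin 2) : ℕ) = (m + 1) * (m + 2) := by
    rw [Nat.sub_eq_iff_eq_add]
    · change _ = _ + (m + 2) ^ 1
      ring
    · exact Nat.pow_le_pow_right (by omega) (by decide)
  rw [e0, e1, e2] at h3
  rw [f0, f1] at h2
  have e3 : m + 2 - 1 = m + 1 := by omega
  rw [e3] at h2 h3
  have h4 : Nat.card (Matrix.SpecialLinearGroup (Fin 2) F) = (m + 3) * ((m + 1) * (m + 2)) := by
    apply Nat.eq_of_mul_eq_mul_left (show 0 < m + 1 by omega)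
    rw [h2]; ring
  apply Nat.eq_of_mul_eq_mul_left (show 0 < m + 1 by omega)
  rw [h3, h4]
  ring

theorem cyc_three (h0 : (p : F) = 0) (h3 : p ≠ 3) (hF : Nat.card F % 3 = 2)
    (P : Sylow 3 (Matrix.SpecialLinearGroup (Fin 3) F)) :
    IsCyclic (P : Subgroup (Matrix.SpecialLinearGroup (Fin 3) F)) := by
  have : Fact (Nat.Prime 3) := ⟨Nat.prime_three⟩
  obtain ⟨P₂⟩ : Nonempty (Sylow 3 (Matrix.SpecialLinearGroup (Fin 2) F)) := inferInstance
  have hcyc := cyc_two h0 h3 P₂
  have h1 : IsPGroup 3 ((P₂ : Subgroup (Matrix.SpecialLinearGroup (Fin 2) F)).map emb) := P₂.isPGroup'.map emb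
  have hc : Nat.card ((P₂ : Subgroup (Matrix.SpecialLinearGroup (Fin 2) F)).map emb) = Nat.card P₂ :=
    Nat.card_congr ((P₂ : Subgroup (Matrix.SpecialLinearGroup (Fin 2) F)).equivMapOfInjective emb
      emb_injective).symm.toEquiv
  have h2 : ¬ 3 ∣ ((P₂ : Subgroup (Matrix.SpecialLinearGroup (Fin 2) F)).map emb).index := by
    have h4 := Subgroup.card_mul_index ((P₂ : Subgroup (Matrix.SpecialLinearGroup (Fin 2) F)).map emb)
    rw [hc, card_three, ← Subgroup.card_mul_index (P₂ : Subgroup (Matrix.SpecialLinearGroup (Fin 2) F))] at h4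
    have h5 : ((P₂ : Subgroup (Matrix.SpecialLinearGroup (Fin 2) F)).map emb).index =
        (Nat.card F ^ 3 - 1) * Nat.card F ^ 2 * (P₂ : Subgroup (Matrix.SpecialLinearGroup (Fin 2) F)).index := by
      apply Nat.eq_of_mul_eq_mul_left (Nat.card_pos (α := ↥(P₂ : Subgroup (Matrix.SpecialLinearGroup (Fin 2) F))))
      rw [h4]; ring
    rw [h5]
    intro h6
    have h7 : 0 < Nat.card F := Nat.card_pos
    have h8 : 0 < Nat.card F ^ 3 := by positivity
    rcases (Nat.Prime.dvd_mul Nat.prime_three).1 h6 with h6 | h6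
    · rcases (Nat.Prime.dvd_mul Nat.prime_three).1 h6 with h6 | h6
      · have h9 : Nat.card F ^ 3 % 3 = 2 := by rw [Nat.pow_mod, hF]
        omega
      · have h9 : Nat.card F ^ 2 % 3 = 1 := by rw [Nat.pow_mod, hF]
        omega
    · exact P₂.not_dvd_index h6
  let Q : Sylow 3 (Matrix.SpecialLinearGroup (Fin 3) F) := h1.toSylow h2
  have e1 : ↥(P₂ : Subgroup (Matrix.SpecialLinearGroup (Fin 2) F)) ≃*
      ↥((P₂ : Subgroup (Matrix.SpecialLinearGroup (Fin 2) F)).map emb) :=
    (P₂ : Subgroup (Matrix.SpecialLinearGroup (Fin 2) F)).equivMapOfInjective emb emb_injective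
  have e2 : ↥((P₂ : Subgroup (Matrix.SpecialLinearGroup (Fin 2) F)).map emb) ≃*
      ↥(P : Subgroup (Matrix.SpecialLinearGroup (Fin 3) F)) := Sylow.equiv Q P
  exact isCyclic_of_surjective (e1.trans e2) (e1.trans e2).surjective

end SL

/-! ### Lifted root group data -/

section Rgd

variable {E Y : Type*} [Group E] [Finite E] [Group Y] {p : ℕ} [Fact p.Prime] {f : E →* Y}
  (hc : f.ker ≤ Subgroup.center E) (hp : (Nat.card f.ker).Coprime p)

include hc hp

/-- `p`-elements with the same image are equal -/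
theorem eq_of_pow {x y : E} (h : f x = f y) {k l : ℕ} (hx : x ^ p ^ k = 1) (hy : y ^ p ^ l = 1) : x = y := by
  have h1 : f (x⁻¹ * y) = 1 := by rw [map_mul, map_inv, h, inv_mul_cancel]
  have h2 : Commute x⁻¹ y := by
    have h3 := Subgroup.mem_center_iff.1 (hc (show x⁻¹ * y ∈ f.ker from h1)) x
    -- `x (x⁻¹ y) = (x⁻¹ y) x`
    have h4 : y = x⁻¹ * y * x := by
      calc y = x * (x⁻¹ * y) := by group
        _ = _ := h3
    change x⁻¹ * y = y * x⁻¹
    conv_rhs => rw [h4]
    group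
  have h5 : (x⁻¹ * y) ^ p ^ (k + l) = 1 := by
    rw [h2.mul_pow, inv_pow, pow_add, pow_mul, hx, one_pow, inv_one, one_mul, mul_comm, pow_mul, hy, one_pow]
  have h6 := eq_one_of_ker (f := f) hp h1 h5
  exact (inv_mul_eq_one.1 h6)

open Cfsg.Agent.H928.Ore.Frame in
theorem nf_lift {V : Subgroup Y} (hV : IsPGroup p V) {V' : Subgroup E} (hle : V' ≤ lft p f V) {c : E}
    (h : NF V (f c)) : NF V' c := fun x hx e =>
  eq_one_of_mem_lft hc hp hV (hle hx) (h (f x) ((mem_lft hc hV).1 (hle hx)).1 (by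
    rw [← map_mul, ← map_inv, ← map_mul, e]))

end Rgd

section U

open CoxeterSystem Cfsg.Agent.ChevalleyStructure.CoxeterGeom Cfsg.Agent.Tits.Roots Cfsg.Agent.Tits.Core
  Cfsg.Agent.Nodes.Reps Cfsg.Agent.Nodes.BNOf Cfsg.Agent.Nodes.RGDLib Cfsg.Agent.Nodes.OppDec
  Cfsg.Agent.Nodes.LeviDec Cfsg.Agent.H162.GaussLevi

variable {I W Y : Type*} [Fintype I] [DecidableEq I] [Group W] [Finite W] [Group Y] [Finite Y] {M : CoxeterMatrix I}
  {cs : CoxeterSystem M W} {A : I → I → ℤ} {h : IsCartan M A} {p : ℕ} [Fact p.Prime] {T : Subgroup Y} {n : I → Y}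
  {X : (I → ℤ) → Subgroup Y}

theorem isPGroup_UN (R : RGD cs h p T n X) : IsPGroup p ↥(UN cs h X) := by
  obtain ⟨k, hk⟩ := exists_rp cs R.nsys (w0 cs)
  rw [← cj_U R hk]
  exact R.isPGroup_Upos.map _

theorem isPGroup_VJ (R : RGD cs h p T n X) (J : Set I) : IsPGroup p ↥(VJ cs h X J) :=
  R.isPGroup_Upos.to_le (RGD.Sup_mono fun _ hx => ⟨hx.1, hx.2.1⟩)

theorem isPGroup_VNJ (R : RGD cs h p T n X) (J : Set I) : IsPGroup p ↥(VNJ cs h X J) :=
  (isPGroup_UN R).to_le (RGD.Sup_mono fun _ hx => ⟨by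
    have := hx.1.neg
    rwa [neg_neg] at this, by
    have := hx.2.1
    exact neg_nonneg.1 this⟩)

end U

end Cfsg.Agent.H231.QS.Lift
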