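import Cfsg.Agent.H231.QS.Tw

/-!
The centre of the cover of `²E₆(q)` (S2491, S2492, piece C4).

* `inc_P` : the homomorphisms `P i : SL₂ → ²E₆(q)` in `E₆(q²)`; `rel32`, `rel23` : the relations of the nodes `2`, `3`;
* `ker_tor` : the relation of the torus;
* `scal` : `h₃(t) h₂(t)⁻¹` is the commutator of `w₂ w₃` and `h₂(t)`;
* `central` : the elements of the kernel are commutators (`|ker| ∣ 3`, `q ≥ 5`).
-/

set_option autoImplicit false
set_option linter.unusedSectionVars false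

namespace Cfsg.Agent.H231.QS.TwCen

open CoxeterSystem Cfsg.Agent.ChevalleyStructure.CoxeterGeom Cfsg.Agent.Tits.Roots Cfsg.Agent.Tits.Core
  Cfsg.Agent.Nodes Cfsg.Agent.Nodes.Reps Cfsg.Agent.Nodes.BNOf Cfsg.Agent.Nodes.RGDLib Cfsg.Agent.Nodes.Bruhat
  Cfsg.Agent.Nodes.OppDec Cfsg.Agent.Nodes.LeviDec Cfsg.Agent.Nodes.StabComb Cfsg.Agent.Nodes.KindChev
  Cfsg.Agent.Nodes.ChevCls Cfsg.Agent.Nodes.RGDLift
  Cfsg.Agent.OddHalf.NI.ModelChev
  Cfsg.Agent.H928.Ore.TwE Cfsg.Agent.H928.Ore.TwS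
open Cfsg.Lie Cfsg.Agent.ChevalleyStructure Cfsg.Agent.ChevalleyStructure.Elts
  Cfsg.Agent.ChevalleyStructure.NPerm
  Cfsg.Agent.ChevalleyStructure.CoxeterGeomTypes Cfsg.Agent.Nodes.RGDChev Cfsg.Agent.KFacts.RgdChevCoord
open Cfsg.Agent.Nodes.RGDTwGen Cfsg.Agent.Nodes.RGDFold Cfsg.Agent.Nodes.RGDTwE6
open Cfsg.Agent.Nodes.RGDFoldSL (Fx mem_Fx psi psi_up psi_lo hv)
open Cfsg.Agent.Nodes.RGDTwNode.E6 (rest)
open Cfsg.Agent.FixBN.FieldRGD (uu vv dd ww)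
open Cfsg.Agent.OddHalf.NI.Mult (dg nn up lo dgHom Coord)
open Cfsg.Agent.H231.QS.Lift
open scoped MatrixGroups

universe u

/-! ### Conjugation by `diag(c, 1)` -/

section

variable {F : Type*} [Field F]

/-- conjugation by `diag(c, 1)` -/
def cj2 (c : Fˣ) : SL(2, F) →* SL(2, F) where
  toFun A := ⟨!![A.1 0 0, (c : F) * A.1 0 1; ((c⁻¹ : Fˣ) : F) * A.1 1 0, A.1 1 1], by
    have := A.2
    rw [Matrix.det_fin_two] at this
    rw [Matrix.det_fin_two_of]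
    have h : (c : F) * ((c⁻¹ : Fˣ) : F) = 1 := c.mul_inv
    linear_combination this - A.1 0 1 * A.1 1 0 * h⟩
  map_one' := by
    apply Subtype.ext
    change !![(1 : Matrix (Fin 2) (Fin 2) F) 0 0, (c : F) * (1 : Matrix (Fin 2) (Fin 2) F) 0 1;
      ((c⁻¹ : Fˣ) : F) * (1 : Matrix (Fin 2) (Fin 2) F) 1 0, (1 : Matrix (Fin 2) (Fin 2) F) 1 1] = 1
    ext i j
    fin_cases i <;> fin_cases j <;> simp
  map_mul' A B := by
    apply Subtype.ext
    change !![(A.1 * B.1) 0 0, (c : F) * (A.1 * B.1) 0 1; ((c⁻¹ : Fˣ) : F) * (A.1 * B.1) 1 0, (A.1 * B.1) 1 1] =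
      !![A.1 0 0, (c : F) * A.1 0 1; ((c⁻¹ : Fˣ) : F) * A.1 1 0, A.1 1 1] *
      !![B.1 0 0, (c : F) * B.1 0 1; ((c⁻¹ : Fˣ) : F) * B.1 1 0, B.1 1 1]
    have h : (c : F) * ((c⁻¹ : Fˣ) : F) = 1 := c.mul_inv
    rw [Matrix.mul_fin_two]
    simp only [Matrix.mul_apply, Fin.sum_univ_two]
    ext i j
    fin_cases i <;> fin_cases j
    · change A.1 0 0 * B.1 0 0 + A.1 0 1 * B.1 1 0 =
        A.1 0 0 * B.1 0 0 + (c : F) * A.1 0 1 * (((c⁻¹ : Fˣ) : F) * B.1 1 0)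
      linear_combination - A.1 0 1 * B.1 1 0 * h
    · change (c : F) * (A.1 0 0 * B.1 0 1 + A.1 0 1 * B.1 1 1) =
        A.1 0 0 * ((c : F) * B.1 0 1) + (c : F) * A.1 0 1 * B.1 1 1
      ring
    · change ((c⁻¹ : Fˣ) : F) * (A.1 1 0 * B.1 0 0 + A.1 1 1 * B.1 1 0) =
        ((c⁻¹ : Fˣ) : F) * A.1 1 0 * B.1 0 0 + A.1 1 1 * (((c⁻¹ : Fˣ) : F) * B.1 1 0)
      ring
    · change A.1 1 0 * B.1 0 1 + A.1 1 1 * B.1 1 1 =
        ((c⁻¹ : Fˣ) : F) * A.1 1 0 * ((c : F) * B.1 0 1) + A.1 1 1 * B.1 1 1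
      linear_combination - A.1 1 0 * B.1 0 1 * h

theorem cj2_uu (c : Fˣ) (a : F) : cj2 c (uu a) = uu ((c : F) * a) := by
  apply Subtype.ext
  change !![(1 : F), (c : F) * a; ((c⁻¹ : Fˣ) : F) * 0, 1] = !![1, (c : F) * a; 0, 1]
  rw [mul_zero]

theorem cj2_vv (c : Fˣ) (a : F) : cj2 c (vv a) = vv (((c⁻¹ : Fˣ) : F) * a) := by
  apply Subtype.ext
  change !![(1 : F), (c : F) * 0; ((c⁻¹ : Fˣ) : F) * a, 1] = !![1, 0; ((c⁻¹ : Fˣ) : F) * a, 1]
  rw [mul_zero]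

theorem cj2_nn (c : Fˣ) : cj2 c (nn 1) = dg c * nn 1 := by
  apply Subtype.ext
  change !![(0 : F), (c : F) * ((1 : Fˣ) : F); ((c⁻¹ : Fˣ) : F) * (-(((1 : Fˣ)⁻¹ : Fˣ) : F)), 0] =
    !![(c : F), 0; 0, ((c⁻¹ : Fˣ) : F)] * !![(0 : F), ((1 : Fˣ) : F); -(((1 : Fˣ)⁻¹ : Fˣ) : F), 0]
  rw [Matrix.mul_fin_two]
  simp

theorem cj2_one (A : SL(2, F)) : cj2 1 A = A := by
  apply Subtype.ext
  change !![A.1 0 0, ((1 : Fˣ) : F) * A.1 0 1; (((1 : Fˣ)⁻¹ : Fˣ) : F) * A.1 1 0, A.1 1 1] = A.1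
  ext i j
  fin_cases i <;> fin_cases j <;> simp

theorem map_cj2 {F' : Type*} [Field F'] (g : F →+* F') (c : Fˣ) (A : SL(2, F)) :
    Matrix.SpecialLinearGroup.map g (cj2 c A) = cj2 (Units.map g.toMonoidHom c) (Matrix.SpecialLinearGroup.map g A) := by
  apply Subtype.ext
  change (!![A.1 0 0, (c : F) * A.1 0 1; ((c⁻¹ : Fˣ) : F) * A.1 1 0, A.1 1 1]).map g =
    !![g (A.1 0 0), g (c : F) * g (A.1 0 1); g ((c⁻¹ : Fˣ) : F) * g (A.1 1 0), g (A.1 1 1)]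
  ext i j
  fin_cases i <;> fin_cases j <;> simp

theorem nn_dg (t : Fˣ) : nn 1 * dg t * (nn 1)⁻¹ = (dg t)⁻¹ := by
  rw [← Cfsg.Agent.OddHalf.NI.Mult.dg_inv, mul_inv_eq_iff_eq_mul]
  apply Subtype.ext
  change !![(0 : F), ((1 : Fˣ) : F); -(((1 : Fˣ)⁻¹ : Fˣ) : F), 0] * !![(t : F), 0; 0, ((t⁻¹ : Fˣ) : F)] =
    !![((t⁻¹ : Fˣ) : F), 0; 0, ((t⁻¹⁻¹ : Fˣ) : F)] * !![(0 : F), ((1 : Fˣ) : F); -(((1 : Fˣ)⁻¹ : Fˣ) : F), 0]
  rw [Matrix.mul_fin_two, Matrix.mul_fin_two]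
  simp

end

/-! ### The scalar as a commutator -/

/-- `h₃(t) h₂(t)⁻¹` is a commutator -/
theorem scal {E : Type*} [Group E] {F : Type*} [Field F] {s2 s3 : SL(2, F) →* E} (t : Fˣ)
    (h32 : ∀ A, s3 (dg t) * s2 A * (s3 (dg t))⁻¹ = s2 (cj2 t⁻¹ A))
    (h23 : ∀ A, s2 (dg t) * s3 A * (s2 (dg t))⁻¹ = s3 (cj2 t⁻¹ A))
    (hcom : s2 (dg t) * s3 (dg t) = s3 (dg t) * s2 (dg t)) :
    s3 (dg t) * (s2 (dg t))⁻¹ = (s2 (nn 1) * s3 (nn 1)) * s2 (dg t) * (s2 (nn 1) * s3 (nn 1))⁻¹ * (s2 (dg t))⁻¹ := by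
  have e1 := h32 (nn 1)
  have e2 := h23 (nn 1)
  rw [cj2_nn, map_mul, Cfsg.Agent.OddHalf.NI.Mult.dg_inv, map_inv] at e1 e2
  have e3 : s2 (nn 1) * s2 (dg t) * (s2 (nn 1))⁻¹ = (s2 (dg t))⁻¹ := by
    rw [← map_mul, ← map_inv, ← map_mul, nn_dg, map_inv]
  obtain ⟨a, ha⟩ : ∃ a, a = s2 (dg t) := ⟨_, rfl⟩
  obtain ⟨b, hb⟩ : ∃ b, b = s3 (dg t) := ⟨_, rfl⟩
  obtain ⟨v, hv⟩ : ∃ v, v = s2 (nn 1) := ⟨_, rfl⟩
  obtain ⟨w, hw⟩ : ∃ w, w = s3 (nn 1) := ⟨_, rfl⟩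
  rw [← ha, ← hb] at hcom
  rw [← hb, ← ha, ← hv] at e1
  rw [← ha, ← hb, ← hw] at e2
  rw [← hv, ← ha] at e3
  rw [← ha, ← hb, ← hv, ← hw]
  -- `w a w⁻¹ = b a`
  have f1 : w * a * w⁻¹ = b * a := by
    calc w * a * w⁻¹ = (a⁻¹ * (a * w * a⁻¹) * w⁻¹)⁻¹ := by group
      _ = (a⁻¹ * (b⁻¹ * w) * w⁻¹)⁻¹ := by rw [e2]
      _ = b * a := by group
  have f2 : v * b * v⁻¹ = a * b := by
    calc v * b * v⁻¹ = (b⁻¹ * (b * v * b⁻¹) * v⁻¹)⁻¹ := by group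
      _ = (b⁻¹ * (a⁻¹ * v) * v⁻¹)⁻¹ := by rw [e1]
      _ = a * b := by group
  calc b * a⁻¹ = (b * a) * a⁻¹ * a⁻¹ := by group
    _ = (a * b) * a⁻¹ * a⁻¹ := by rw [hcom]
    _ = (v * b * v⁻¹) * (v * a * v⁻¹) * a⁻¹ := by rw [f2, e3]
    _ = v * (b * a) * v⁻¹ * a⁻¹ := by group
    _ = v * (w * a * w⁻¹) * v⁻¹ * a⁻¹ := by rw [f1]
    _ = _ := by group

/-! ### The homomorphisms `P i` -/

section

variable {K : Type u} [Field K]

theorem tab_neg : ∀ i k : Fin 6, chevE6.cartan i (chevE6.neg (chevE6.simple k)) =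
    -chevE6.cartan i (chevE6.simple k) := by decide +kernel

theorem sl_cj (j k : Fin 6) (t : Kˣ) (A : SL(2, K)) :
    sl RGDTwE6.hp j (dd (t : K) t.ne_zero) * sl RGDTwE6.hp k A * (sl RGDTwE6.hp j (dd (t : K) t.ne_zero))⁻¹ =
      sl RGDTwE6.hp k (cj2 (t ^ (chevE6.cartan j (chevE6.simple k))) A) := by
  have h : (MulAut.conj (sl RGDTwE6.hp j (dd (t : K) t.ne_zero))).toMonoidHom.comp (sl RGDTwE6.hp k) =
      (sl RGDTwE6.hp k).comp (cj2 (t ^ (chevE6.cartan j (chevE6.simple k)))) := by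
    have hk := simple_lt RGDTwE6.hp.inList (lt_rank RGDTwE6.hp k)
    have hk' := neg_lt RGDTwE6.hp.inList hk
    refine ext2 (fun a => ?_) (fun a => ?_)
    · change sl RGDTwE6.hp j _ * sl RGDTwE6.hp k (uu a) * (sl RGDTwE6.hp j _)⁻¹ = sl RGDTwE6.hp k (cj2 _ (uu a))
      rw [cj2_uu, sl_uu, sl_uu, sl_dd, ← vec_simple RGDTwE6.hp k,
        (act RGDTwE6.hp hk (hc_mem RGDTwE6.hp j t.ne_zero)).2, ch_hc RGDTwE6.hp j t.ne_zero hk,
        Units.val_zpow_eq_zpow_val]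
    · change sl RGDTwE6.hp j _ * sl RGDTwE6.hp k (vv a) * (sl RGDTwE6.hp j _)⁻¹ = sl RGDTwE6.hp k (cj2 _ (vv a))
      rw [cj2_vv, sl_vv, sl_vv, sl_dd, ← vec_simple RGDTwE6.hp k, ← vec_neg RGDTwE6.hp hk,
        (act RGDTwE6.hp hk' (hc_mem RGDTwE6.hp j t.ne_zero)).2, ch_hc RGDTwE6.hp j t.ne_zero hk', tab_neg,
        ← zpow_neg, Units.val_zpow_eq_zpow_val]
  exact DFunLike.congr_fun h A

theorem coe_sl (k : Fin 6) (A : SL(2, K)) :
    ((sl RGDTwE6.hp k A : ↥(chevE6.group K)) : GL chevE6.Idx K) = psi RGDTwE6.hp.inList K (chevE6.simple k) A := by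
  have h : (chevE6.group K).subtype.comp (sl RGDTwE6.hp k) = psi RGDTwE6.hp.inList K (chevE6.simple k) := by
    have hk := simple_lt RGDTwE6.hp.inList (lt_rank RGDTwE6.hp k)
    refine ext2 (fun a => ?_) (fun a => ?_)
    · change ((sl RGDTwE6.hp k (uu a) : ↥(chevE6.group K)) : GL chevE6.Idx K) = _
      rw [sl_uu, ← vec_simple RGDTwE6.hp k, coe_xc RGDTwE6.hp hk]
      exact (psi_up RGDTwE6.hp.inList hk a).symm
    · change ((sl RGDTwE6.hp k (vv a) : ↥(chevE6.group K)) : GL chevE6.Idx K) = _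
      rw [sl_vv, ← vec_simple RGDTwE6.hp k, coe_xc_neg RGDTwE6.hp hk]
      exact (psi_lo RGDTwE6.hp.inList hk a).symm
  exact DFunLike.congr_fun h A

end

section

variable {K : Type u} [Field K] [Fintype K] {φ : K →+* K} {q : ℕ} (hφ : ∀ t, φ t = t ^ q)
  (hqq : ∀ t : K, (t ^ q) ^ q = t)

/-- the homomorphisms of the nodes -/
noncomputable def Q0 : SL(2, Fx φ 1) →* ↥(twistedE6 K q) := Cfsg.Agent.H958.TS.TwCommon.P hφ hqq 0

/-- the homomorphisms of the nodes -/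
noncomputable def Q1 : SL(2, Fx φ 1) →* ↥(twistedE6 K q) := Cfsg.Agent.H958.TS.TwCommon.P hφ hqq 1

/-- the homomorphisms of the nodes -/
noncomputable def Q2 : SL(2, Fx φ 2) →* ↥(twistedE6 K q) := Cfsg.Agent.H958.TS.TwCommon.P hφ hqq 2

/-- the homomorphisms of the nodes -/
noncomputable def Q3 : SL(2, Fx φ 2) →* ↥(twistedE6 K q) := Cfsg.Agent.H958.TS.TwCommon.P hφ hqq 3

theorem inc_Q0 (A : SL(2, Fx φ 1)) : inc K q (Q0 hφ hqq A) =
    sl RGDTwE6.hp (1 : Fin 6) (Matrix.SpecialLinearGroup.map (Fx φ 1).subtype A) := by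
  apply Subtype.ext
  rw [coe_sl]
  change psi RGDTwE6.hp.inList K 46 (Matrix.SpecialLinearGroup.map (Fx φ 1).subtype A) * 1 = _
  rw [mul_one]
  rfl

theorem inc_Q1 (A : SL(2, Fx φ 1)) : inc K q (Q1 hφ hqq A) =
    sl RGDTwE6.hp (3 : Fin 6) (Matrix.SpecialLinearGroup.map (Fx φ 1).subtype A) := by
  apply Subtype.ext
  rw [coe_sl]
  change psi RGDTwE6.hp.inList K 39 (Matrix.SpecialLinearGroup.map (Fx φ 1).subtype A) * 1 = _
  rw [mul_one]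
  rfl

theorem inc_Q2 (A : SL(2, Fx φ 2)) : inc K q (Q2 hφ hqq A) =
    sl RGDTwE6.hp (2 : Fin 6) (Matrix.SpecialLinearGroup.map (Fx φ 2).subtype A) *
      sl RGDTwE6.hp (4 : Fin 6) (Matrix.SpecialLinearGroup.map φ (Matrix.SpecialLinearGroup.map (Fx φ 2).subtype A)) := by
  apply Subtype.ext
  rw [Subgroup.coe_mul, coe_sl, coe_sl]
  change psi RGDTwE6.hp.inList K 42 (Matrix.SpecialLinearGroup.map (Fx φ 2).subtype A) *
    (psi RGDTwE6.hp.inList K 37 (Matrix.SpecialLinearGroup.map φ (Matrix.SpecialLinearGroup.map (Fx φ 2).subtype A)) * 1) = _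
  rw [mul_one]
  rfl

theorem inc_Q3 (A : SL(2, Fx φ 2)) : inc K q (Q3 hφ hqq A) =
    sl RGDTwE6.hp (0 : Fin 6) (Matrix.SpecialLinearGroup.map (Fx φ 2).subtype A) *
      sl RGDTwE6.hp (5 : Fin 6) (Matrix.SpecialLinearGroup.map φ (Matrix.SpecialLinearGroup.map (Fx φ 2).subtype A)) := by
  apply Subtype.ext
  rw [Subgroup.coe_mul, coe_sl, coe_sl]
  change psi RGDTwE6.hp.inList K 56 (Matrix.SpecialLinearGroup.map (Fx φ 2).subtype A) *
    (psi RGDTwE6.hp.inList K 36 (Matrix.SpecialLinearGroup.map φ (Matrix.SpecialLinearGroup.map (Fx φ 2).subtype A)) * 1) = _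
  rw [mul_one]
  rfl

omit [Fintype K] in
theorem map_dg {F F' : Type*} [Field F] [Field F'] (g : F →+* F') (t : Fˣ) :
    Matrix.SpecialLinearGroup.map g (dg t) = dd (g (t : F)) ((map_ne_zero g).2 t.ne_zero) := by
  apply Subtype.ext
  change (!![(t : F), 0; 0, ((t⁻¹ : Fˣ) : F)]).map g = !![g (t : F), 0; 0, (g (t : F))⁻¹]
  ext i j
  fin_cases i <;> fin_cases j <;> simp

omit [Fintype K] in
theorem map_dd {F F' : Type*} [Field F] [Field F'] (g : F →+* F') {c : F} (hc : c ≠ 0) :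
    Matrix.SpecialLinearGroup.map g (dd c hc) = dd (g c) ((map_ne_zero g).2 hc) := by
  apply Subtype.ext
  change (!![c, 0; 0, c⁻¹]).map g = !![g c, 0; 0, (g c)⁻¹]
  ext i j
  fin_cases i <;> fin_cases j <;> simp

theorem rel32 (t : (Fx φ 2)ˣ) (A : SL(2, Fx φ 2)) : Q3 hφ hqq (dg t) * Q2 hφ hqq A * (Q3 hφ hqq (dg t))⁻¹ = Q2 hφ hqq (cj2 t⁻¹ A) := by
  apply inc_injective q
  rw [map_mul, map_mul, map_inv, inc_Q3, inc_Q2, inc_Q2, map_cj2, map_cj2, map_dg, map_dd]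
  obtain ⟨u, hu⟩ : ∃ u : Kˣ, u = Units.map (Fx φ 2).subtype.toMonoidHom t := ⟨_, rfl⟩
  obtain ⟨v, hv⟩ : ∃ v : Kˣ, v = Units.map φ.toMonoidHom u := ⟨_, rfl⟩
  have hu' : Units.map (Fx φ 2).subtype.toMonoidHom t⁻¹ = u⁻¹ := by rw [hu, map_inv]
  have hv' : Units.map φ.toMonoidHom u⁻¹ = v⁻¹ := by rw [hv, map_inv]
  obtain ⟨B, hB⟩ : ∃ B, B = Matrix.SpecialLinearGroup.map (Fx φ 2).subtype A := ⟨_, rfl⟩
  obtain ⟨B', hB'⟩ : ∃ B', B' = Matrix.SpecialLinearGroup.map φ B := ⟨_, rfl⟩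
  rw [← hB, ← hB', hu', hv']
  have e1 := sl_cj (0 : Fin 6) (2 : Fin 6) u B
  have e2 := sl_cj (5 : Fin 6) (2 : Fin 6) v B
  have e3 := sl_cj (0 : Fin 6) (4 : Fin 6) u (cj2 v⁻¹ B')
  have e4 := sl_cj (5 : Fin 6) (4 : Fin 6) v B'
  have c1 : chevE6.cartan (0 : Fin 6) (chevE6.simple (2 : Fin 6)) = -1 := by decide +kernel
  have c2 : chevE6.cartan (5 : Fin 6) (chevE6.simple (2 : Fin 6)) = 0 := by decide +kernel
  have c3 : chevE6.cartan (0 : Fin 6) (chevE6.simple (4 : Fin 6)) = 0 := by decide +kernel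
  have c4 : chevE6.cartan (5 : Fin 6) (chevE6.simple (4 : Fin 6)) = -1 := by decide +kernel
  rw [c1, zpow_neg_one] at e1
  rw [c2, zpow_zero, cj2_one] at e2
  rw [c3, zpow_zero, cj2_one] at e3
  rw [c4, zpow_neg_one] at e4
  have d1 : (u : K) = (Fx φ 2).subtype (t : Fx φ 2) := by rw [hu]; rfl
  have d2 : (v : K) = φ ((Fx φ 2).subtype (t : Fx φ 2)) := by rw [hv, hu]; rfl
  have g1 : ∀ h, (dd ((Fx φ 2).subtype (t : Fx φ 2)) h : SL(2, K)) = dd (u : K) u.ne_zero := fun h => by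
    congr 1; exact d1.symm
  have g2 : ∀ h, (dd (φ ((Fx φ 2).subtype (t : Fx φ 2))) h : SL(2, K)) = dd (v : K) v.ne_zero := fun h => by
    congr 1; exact d2.symm
  rw [g1, g2]
  set a := sl RGDTwE6.hp (0 : Fin 6) (dd (u : K) u.ne_zero)
  set b := sl RGDTwE6.hp (5 : Fin 6) (dd (v : K) v.ne_zero)
  calc a * b * (sl RGDTwE6.hp (2 : Fin 6) B * sl RGDTwE6.hp (4 : Fin 6) B') * (a * b)⁻¹
      = (a * (b * sl RGDTwE6.hp (2 : Fin 6) B * b⁻¹) * a⁻¹) * (a * (b * sl RGDTwE6.hp (4 : Fin 6) B' * b⁻¹) * a⁻¹) := by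
        group
    _ = _ := by rw [e2, e4, e1, e3]

theorem rel23 (t : (Fx φ 2)ˣ) (A : SL(2, Fx φ 2)) : Q2 hφ hqq (dg t) * Q3 hφ hqq A * (Q2 hφ hqq (dg t))⁻¹ = Q3 hφ hqq (cj2 t⁻¹ A) := by
  apply inc_injective q
  rw [map_mul, map_mul, map_inv, inc_Q2, inc_Q3, inc_Q3, map_cj2, map_cj2, map_dg, map_dd]
  obtain ⟨u, hu⟩ : ∃ u : Kˣ, u = Units.map (Fx φ 2).subtype.toMonoidHom t := ⟨_, rfl⟩
  obtain ⟨v, hv⟩ : ∃ v : Kˣ, v = Units.map φ.toMonoidHom u := ⟨_, rfl⟩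
  have hu' : Units.map (Fx φ 2).subtype.toMonoidHom t⁻¹ = u⁻¹ := by rw [hu, map_inv]
  have hv' : Units.map φ.toMonoidHom u⁻¹ = v⁻¹ := by rw [hv, map_inv]
  obtain ⟨B, hB⟩ : ∃ B, B = Matrix.SpecialLinearGroup.map (Fx φ 2).subtype A := ⟨_, rfl⟩
  obtain ⟨B', hB'⟩ : ∃ B', B' = Matrix.SpecialLinearGroup.map φ B := ⟨_, rfl⟩
  rw [← hB, ← hB', hu', hv']
  have e1 := sl_cj (2 : Fin 6) (0 : Fin 6) u B
  have e2 := sl_cj (4 : Fin 6) (0 : Fin 6) v B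
  have e3 := sl_cj (2 : Fin 6) (5 : Fin 6) u (cj2 v⁻¹ B')
  have e4 := sl_cj (4 : Fin 6) (5 : Fin 6) v B'
  have c1 : chevE6.cartan (2 : Fin 6) (chevE6.simple (0 : Fin 6)) = -1 := by decide +kernel
  have c2 : chevE6.cartan (4 : Fin 6) (chevE6.simple (0 : Fin 6)) = 0 := by decide +kernel
  have c3 : chevE6.cartan (2 : Fin 6) (chevE6.simple (5 : Fin 6)) = 0 := by decide +kernel
  have c4 : chevE6.cartan (4 : Fin 6) (chevE6.simple (5 : Fin 6)) = -1 := by decide +kernel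
  rw [c1, zpow_neg_one] at e1
  rw [c2, zpow_zero, cj2_one] at e2
  rw [c3, zpow_zero, cj2_one] at e3
  rw [c4, zpow_neg_one] at e4
  have d1 : (u : K) = (Fx φ 2).subtype (t : Fx φ 2) := by rw [hu]; rfl
  have d2 : (v : K) = φ ((Fx φ 2).subtype (t : Fx φ 2)) := by rw [hv, hu]; rfl
  have g1 : ∀ h, (dd ((Fx φ 2).subtype (t : Fx φ 2)) h : SL(2, K)) = dd (u : K) u.ne_zero := fun h => by
    congr 1; exact d1.symm
  have g2 : ∀ h, (dd (φ ((Fx φ 2).subtype (t : Fx φ 2))) h : SL(2, K)) = dd (v : K) v.ne_zero := fun h => by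
    congr 1; exact d2.symm
  rw [g1, g2]
  set a := sl RGDTwE6.hp (2 : Fin 6) (dd (u : K) u.ne_zero)
  set b := sl RGDTwE6.hp (4 : Fin 6) (dd (v : K) v.ne_zero)
  calc a * b * (sl RGDTwE6.hp (0 : Fin 6) B * sl RGDTwE6.hp (5 : Fin 6) B') * (a * b)⁻¹
      = (a * (b * sl RGDTwE6.hp (0 : Fin 6) B * b⁻¹) * a⁻¹) * (a * (b * sl RGDTwE6.hp (5 : Fin 6) B' * b⁻¹) * a⁻¹) := by
        group
    _ = _ := by rw [e2, e4, e1, e3]

/-- the relation of the torus -/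
theorem ker_tor {t0 t1 : (Fx φ 1)ˣ} {t2 t3 : (Fx φ 2)ˣ}
    (h : Q0 hφ hqq (dg t0) * Q1 hφ hqq (dg t1) * Q2 hφ hqq (dg t2) * Q3 hφ hqq (dg t3) = 1) :
    t0 = 1 ∧ t1 = 1 ∧ t2 = t3⁻¹ := by
  have h1 := congrArg (inc K q) h
  rw [map_one, map_mul, map_mul, map_mul, inc_Q0, inc_Q1, inc_Q2, inc_Q3, map_dg, map_dg, map_dg, map_dg, map_dd,
    map_dd] at h1
  obtain ⟨a, ha⟩ : ∃ a : Kˣ, a = Units.map (Fx φ 1).subtype.toMonoidHom t0 := ⟨_, rfl⟩
  obtain ⟨b, hb⟩ : ∃ b : Kˣ, b = Units.map (Fx φ 1).subtype.toMonoidHom t1 := ⟨_, rfl⟩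
  obtain ⟨c, hc⟩ : ∃ c : Kˣ, c = Units.map (Fx φ 2).subtype.toMonoidHom t2 := ⟨_, rfl⟩
  obtain ⟨e, he⟩ : ∃ e : Kˣ, e = Units.map (Fx φ 2).subtype.toMonoidHom t3 := ⟨_, rfl⟩
  obtain ⟨d, hd⟩ : ∃ d : Kˣ, d = Units.map φ.toMonoidHom c := ⟨_, rfl⟩
  obtain ⟨f, hf⟩ : ∃ f : Kˣ, f = Units.map φ.toMonoidHom e := ⟨_, rfl⟩
  have hT : (Pi.mulSingle 1 a * Pi.mulSingle 3 b * (Pi.mulSingle 2 c * Pi.mulSingle 4 d) *
      (Pi.mulSingle 0 e * Pi.mulSingle 5 f) : Fin 6 → Kˣ) = ![e, a, c, b, d, f] := by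
    funext i
    fin_cases i <;> simp
  have h2 : th RGDTwE6.hp ![e, a, c, b, d, f] = 1 := by
    rw [← hT, map_mul, map_mul, map_mul, map_mul, map_mul, th_mulSingle, th_mulSingle, th_mulSingle, th_mulSingle,
      th_mulSingle, th_mulSingle]
    rw [← h1]
    have g0 : ∀ h, (dd ((Fx φ 1).subtype (t0 : Fx φ 1)) h : SL(2, K)) = dd (a : K) a.ne_zero := fun h => by
      congr 1; rw [ha]; rfl
    have g1 : ∀ h, (dd ((Fx φ 1).subtype (t1 : Fx φ 1)) h : SL(2, K)) = dd (b : K) b.ne_zero := fun h => by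
      congr 1; rw [hb]; rfl
    have g2 : ∀ h, (dd ((Fx φ 2).subtype (t2 : Fx φ 2)) h : SL(2, K)) = dd (c : K) c.ne_zero := fun h => by
      congr 1; rw [hc]; rfl
    have g3 : ∀ h, (dd ((Fx φ 2).subtype (t3 : Fx φ 2)) h : SL(2, K)) = dd (e : K) e.ne_zero := fun h => by
      congr 1; rw [he]; rfl
    have g4 : ∀ h, (dd (φ ((Fx φ 2).subtype (t2 : Fx φ 2))) h : SL(2, K)) = dd (d : K) d.ne_zero := fun h => by
      congr 1; rw [hd, hc]; rfl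
    have g5 : ∀ h, (dd (φ ((Fx φ 2).subtype (t3 : Fx φ 2))) h : SL(2, K)) = dd (f : K) f.ne_zero := fun h => by
      congr 1; rw [hf, he]; rfl
    rw [g0, g1, g2, g3, g4, g5]
  have k3 : ∀ i, (![e, a, c, b, d, f] : Fin 6 → Kˣ) i ^ 3 = 1 := fun i => th_ker_E6 h2 i
  have c0 := th_cartan RGDTwE6.hp h2 0
  have c1 := th_cartan RGDTwE6.hp h2 1
  have c2 := th_cartan RGDTwE6.hp h2 2
  have v0 : ∀ i : Fin 6, cartanOf chevE6 6 i 0 = ![2, 0, -1, 0, 0, 0] i := by decide +kernel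
  have v1 : ∀ i : Fin 6, cartanOf chevE6 6 i 1 = ![0, 2, 0, -1, 0, 0] i := by decide +kernel
  have v2 : ∀ i : Fin 6, cartanOf chevE6 6 i 2 = ![-1, 0, 2, -1, 0, 0] i := by decide +kernel
  simp only [v0, v1, v2, Fin.prod_univ_six] at c0 c1 c2
  have e0 : e ^ 3 = 1 := k3 0
  have ea : a ^ 3 = 1 := k3 1
  have ec : c ^ 3 = 1 := k3 2
  have eb : b ^ 3 = 1 := k3 3
  have r0 : e ^ 2 * c⁻¹ = 1 := by
    apply Units.ext
    rw [Units.val_mul, Units.val_pow_eq_pow_val, Units.val_inv_eq_inv_val, Units.val_one]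
    simpa using c0
  have r1 : a ^ 2 * b⁻¹ = 1 := by
    apply Units.ext
    rw [Units.val_mul, Units.val_pow_eq_pow_val, Units.val_inv_eq_inv_val, Units.val_one]
    simpa using c1
  have r2 : e⁻¹ * c ^ 2 * b⁻¹ = 1 := by
    apply Units.ext
    rw [Units.val_mul, Units.val_mul, Units.val_pow_eq_pow_val, Units.val_inv_eq_inv_val, Units.val_inv_eq_inv_val,
      Units.val_one]
    simpa using c2
  have hc1 : c = e⁻¹ := by
    have h4 : c = e ^ 2 := (mul_inv_eq_one.1 r0).symm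
    rw [h4]
    apply eq_inv_of_mul_eq_one_left
    rw [← pow_succ]
    exact e0
  have hb1 : b = 1 := by
    have h4 : b = e⁻¹ * c ^ 2 := (mul_inv_eq_one.1 r2).symm
    rw [h4, hc1, inv_pow, ← _root_.mul_inv_rev, ← pow_succ, e0, inv_one]
  have ha1 : a = 1 := by
    have h4 : a ^ 2 = 1 := by
      have h5 := mul_inv_eq_one.1 r1
      rw [h5, hb1]
    calc a = a ^ 3 * (a ^ 2)⁻¹ := by rw [pow_succ, pow_succ]; group
      _ = 1 := by rw [ea, h4]; group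
  have inj1 : Function.Injective (Units.map (Fx φ 1).subtype.toMonoidHom) :=
    Units.map_injective (Fx φ 1).subtype.injective
  have inj2 : Function.Injective (Units.map (Fx φ 2).subtype.toMonoidHom) :=
    Units.map_injective (Fx φ 2).subtype.injective
  refine ⟨inj1 ?_, inj1 ?_, inj2 ?_⟩
  · rw [← ha, ha1, map_one]
  · rw [← hb, hb1, map_one]
  · rw [← hc, hc1, he, map_inv]

end

/-- `SL₂(F)` is perfect, `|F| ≥ 4` -/
theorem perf2 {F : Type*} [Field F] [Finite F] (h : 4 ≤ Nat.card F) : commutator SL(2, F) = ⊤ := by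
  classical
  have := Fintype.ofFinite F
  rw [Nat.card_eq_fintype_card] at h
  have h1 : ∃ a : F, a ∉ ({0, 1, -1} : Finset F) := by
    by_contra hcon
    push Not at hcon
    have h2 : Fintype.card F ≤ ({0, 1, -1} : Finset F).card := by
      rw [← Finset.card_univ]
      exact Finset.card_le_card fun x _ => hcon x
    have h3 : ({0, 1, -1} : Finset F).card ≤ 3 := Finset.card_le_three
    omega
  obtain ⟨a, ha⟩ := h1
  simp only [Finset.mem_insert, Finset.mem_singleton, not_or] at ha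
  refine Matrix.SL2.commutator_eq_top ha.1 ?_
  rw [Ne, sq_eq_one_iff]
  tauto

/-- powers of central commutators -/
theorem zpow_comm {E : Type*} [Group E] {A B ζ : E} (h : A * B * A⁻¹ * B⁻¹ = ζ) (hz : ζ ∈ Subgroup.center E) (n : ℤ) :
    ζ ^ n = A ^ n * B * (A ^ n)⁻¹ * B⁻¹ := by
  have hz' : ∀ x, x * ζ = ζ * x := Subgroup.mem_center_iff.1 hz
  have e1 : B * A * B⁻¹ = ζ⁻¹ * A := by
    have h2 : ζ * (B * A * B⁻¹) = A := by
      rw [← h]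
      group
    calc B * A * B⁻¹ = ζ⁻¹ * (ζ * (B * A * B⁻¹)) := by group
      _ = _ := by rw [h2]
  have hc : Commute ζ⁻¹ A := by
    have : Commute ζ A := (hz' A).symm
    exact this.inv_left
  have e2 : B * A ^ n * B⁻¹ = ζ⁻¹ ^ n * A ^ n := by
    rw [← hc.mul_zpow, ← e1]
    have := map_zpow (MulAut.conj B) A n
    simpa only [MulAut.conj_apply] using this
  calc ζ ^ n = A ^ n * (A ^ n)⁻¹ * ζ ^ n := by group
    _ = A ^ n * (ζ⁻¹ ^ n * A ^ n)⁻¹ := by rw [inv_zpow]; group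
    _ = A ^ n * (B * A ^ n * B⁻¹)⁻¹ := by rw [e2]
    _ = _ := by group

/-- **The kernel.** -/
theorem central {K : Type u} [Field K] [Fintype K] {q : ℕ} (hq : IsPrimePow q) (hK : Fintype.card K = q ^ 2)
    (h23 : q % 3 = 2)
    {E : Type*} [Group E] [Finite E] {π : E →* ↥(twistedE6 K q)} (hsur : Function.Surjective π)
    (hc : π.ker ≤ Subgroup.center E) (h3 : Nat.card π.ker ∣ 3) (hE : commutator E = ⊤) {x : E} (hx : x ∈ π.ker) :
    ∃ a b : E, x = a * b * a⁻¹ * b⁻¹ := by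
  obtain ⟨φ, hφ, hqq⟩ := TwE6Basic.exists_frob hq hK
  obtain ⟨p, hpc⟩ := CharP.exists K
  have : Fact p.Prime := ⟨(CharP.char_is_prime_or_zero K p).resolve_right (CharP.char_ne_zero_of_finite K p)⟩
  have : Fact (Nat.Prime 3) := ⟨Nat.prime_three⟩
  have h0 : (p : K) = 0 := CharP.cast_eq_zero K p
  have hp3 : p ≠ 3 := by
    rintro rfl
    have h1 : 3 ∣ Fintype.card K := by
      rw [← CharP.cast_eq_zero_iff K 3]
      exact Nat.cast_card_eq_zero K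
    rw [hK] at h1
    have h2 := Nat.prime_three.dvd_of_dvd_pow h1
    omega
  have h3' : IsPGroup 3 π.ker := by
    rcases (Nat.dvd_prime Nat.prime_three).1 h3 with h4 | h4
    · exact IsPGroup.of_card (n := 0) (by rw [h4, pow_zero])
    · exact IsPGroup.of_card (n := 1) (by rw [h4, pow_one])
  have hfin : Finite (GL chevE6.Idx K) := by
    have : Finite (Matrix chevE6.Idx chevE6.Idx K) := inferInstance
    infer_instance
  have : Finite ↥(twistedE6 K q) := inferInstance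
  have R := RGDTwE6.rgd CoxeterMatrix.F₄.toCoxeterSystem hφ hqq p
  have : Finite CoxeterMatrix.F₄.Group := Cfsg.Agent.Nodes.RGDFold.finite_W (hp := RGDTwE6.hp)
    CoxeterMatrix.F₄.toCoxeterSystem RGDTwE6.isCartan RGDTwE6.foldData
  have hker : (Nat.card π.ker).Coprime p := by
    obtain ⟨k, hk⟩ := IsPGroup.iff_card.1 h3'
    rw [hk]
    exact Nat.Coprime.pow_left k ((Nat.coprime_primes Fact.out Fact.out).2 (Ne.symm hp3))
  have hn : ∃ n' : Fin 4 → E, ∀ i, π (n' i) = RGDTwE6.nn hφ i := by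
    choose n' hn' using fun i => hsur (RGDTwE6.nn hφ i)
    exact ⟨n', hn'⟩
  obtain ⟨n', hn'⟩ := hn
  have R' := rgd_lift hc hker hsur R hn'
  have hG := RGDTwE6.G1_eq_top CoxeterMatrix.F₄.toCoxeterSystem hφ hqq
  have hG' := Cfsg.Agent.OddHalf.NI.Mult.G1_lift R hG hsur hc hker hE
  have C := Cfsg.Agent.H958.TS.TwCommon.coordP hφ hqq
  have hch : ∀ i : Fin 4, ((p : ℕ) : Fx φ ((rest i).length + 1)) = 0 := fun i =>
    Subtype.ext (by
      rw [Subring.coe_natCast, ZeroMemClass.coe_zero]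
      exact h0)
  have hlift : ∀ i, ∃ s' : Matrix.SpecialLinearGroup (Fin 2) (Fx φ ((rest i).length + 1))
      →* E, π.comp s' = Cfsg.Agent.H958.TS.TwCommon.P hφ hqq i := fun i =>
    Cfsg.Agent.H231.QS.Lift.exists_lift (p := p) (r := 3) hp3 hsur hc h3' _ (closure_pow (hch i))
      (fun P => cyc_two (hch i) hp3 P)
  choose t ht using hlift
  have ht' : ∀ i A, π (t i A) = Cfsg.Agent.H958.TS.TwCommon.P hφ hqq i A := fun i A => DFunLike.congr_fun (ht i) A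
  have C' := Cfsg.Agent.OddHalf.NI.Mult.coord_lift R C hc hker ht
  have hT := Cfsg.Agent.OddHalf.NI.Mult.torus R' C' hG'
  by_cases hcom : ∀ i j, i ≠ j → ∀ a b, Commute (t i (dg a)) (t j (dg b))
  · have hcomm : Pairwise fun i j => ∀ (a : (Fx φ ((rest i).length + 1))ˣ) (b : (Fx φ ((rest j).length + 1))ˣ),
        Commute (((t i).comp dgHom) a) (((t j).comp dgHom) b) := fun i j hij a b => hcom i j hij a b
    have hx1 : x ∈ (MonoidHom.noncommPiCoprod (fun i => (t i).comp dgHom) hcomm).range := by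
      rw [MonoidHom.noncommPiCoprod_range, ← hT, Subgroup.mem_comap]
      rw [MonoidHom.mem_ker] at hx
      rw [hx]
      exact one_mem _
    obtain ⟨u, hu⟩ := hx1
    have hsingle : ∀ i (a : (Fx φ ((rest i).length + 1))ˣ), MonoidHom.noncommPiCoprod (fun i => (t i).comp dgHom) hcomm
        (Pi.mulSingle i a) = t i (dg a) := by
      intro i a
      rw [MonoidHom.noncommPiCoprod_mulSingle]
      rfl
    have hu1 : u = Pi.mulSingle 0 (u 0) * Pi.mulSingle 1 (u 1) * Pi.mulSingle 2 (u 2) * Pi.mulSingle 3 (u 3) := by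
      rw [← Fin.prod_univ_four (fun i => Pi.mulSingle i (u i)), Finset.univ_prod_mulSingle]
    rw [hu1, map_mul, map_mul, map_mul, hsingle, hsingle, hsingle, hsingle] at hu
    have hx2 : π x = 1 := hx
    rw [← hu, map_mul, map_mul, map_mul, ht', ht', ht', ht'] at hx2
    obtain ⟨e0, e1, e2⟩ := ker_tor hφ hqq (t0 := u 0) (t1 := u 1) (t2 := u 2) (t3 := u 3) hx2
    have hcard : 4 ≤ Nat.card (Fx φ 2) := by
      have h5 : (Fx φ 2) = ⊤ := by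
        rw [eq_top_iff]
        intro y _
        rw [mem_Fx]
        change φ (φ y) = y
        rw [hφ, hφ, hqq]
      have h6 : Nat.card (Fx φ 2) = Nat.card K := by
        rw [h5]
        exact Nat.card_congr Subfield.topEquiv.toEquiv
      rw [h6, Nat.card_eq_fintype_card, hK]
      have := hq.one_lt
      nlinarith
    have hperf : commutator SL(2, Fx φ 2) = ⊤ := perf2 hcard
    obtain ⟨s2, hs2⟩ : ∃ s2 : SL(2, Fx φ 2) →* E, s2 = t 2 := ⟨_, rfl⟩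
    obtain ⟨s3, hs3⟩ : ∃ s3 : SL(2, Fx φ 2) →* E, s3 = t 3 := ⟨_, rfl⟩
    have hq2 : ∀ A, π (s2 A) = Q2 hφ hqq A := by
      rw [hs2]
      exact fun A => ht' 2 A
    have hq3 : ∀ A, π (s3 A) = Q3 hφ hqq A := by
      rw [hs3]
      exact fun A => ht' 3 A
    obtain ⟨v, hv⟩ : ∃ v : (Fx φ 2)ˣ, v = u 3 := ⟨_, rfl⟩
    have h32 : ∀ A, s3 (dg v) * s2 A * (s3 (dg v))⁻¹ = s2 (cj2 v⁻¹ A) := by
      have h5 : (MulAut.conj (s3 (dg v))).toMonoidHom.comp s2 = s2.comp (cj2 v⁻¹) := by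
        refine hom_eq hperf hc fun A => ?_
        change π (s3 (dg v) * s2 A * (s3 (dg v))⁻¹) = π (s2 (cj2 v⁻¹ A))
        rw [map_mul, map_mul, map_inv, hq3, hq2, hq2]
        exact rel32 hφ hqq v A
      exact fun A => DFunLike.congr_fun h5 A
    have h23' : ∀ A, s2 (dg v) * s3 A * (s2 (dg v))⁻¹ = s3 (cj2 v⁻¹ A) := by
      have h5 : (MulAut.conj (s2 (dg v))).toMonoidHom.comp s3 = s3.comp (cj2 v⁻¹) := by
        refine hom_eq hperf hc fun A => ?_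
        change π (s2 (dg v) * s3 A * (s2 (dg v))⁻¹) = π (s3 (cj2 v⁻¹ A))
        rw [map_mul, map_mul, map_inv, hq2, hq3, hq3]
        exact rel23 hφ hqq v A
      exact fun A => DFunLike.congr_fun h5 A
    have hc23 : s2 (dg v) * s3 (dg v) = s3 (dg v) * s2 (dg v) := by
      rw [hs2, hs3]
      exact hcom 2 3 (by decide) v v
    have h6 := scal v h32 h23' hc23
    have h9 : x = s3 (dg v) * (s2 (dg v))⁻¹ := by
      rw [← hu]
      have k0 : t 0 (dg (u 0)) = 1 := by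
        have : u 0 = 1 := e0
        rw [this, Cfsg.Agent.OddHalf.NI.Mult.dg_one, map_one]
      have k1 : t 1 (dg (u 1)) = 1 := by
        have : u 1 = 1 := e1
        rw [this, Cfsg.Agent.OddHalf.NI.Mult.dg_one, map_one]
      have k2 : t 2 (dg (u 2)) = (s2 (dg v))⁻¹ := by
        have h7 : (u 2 : (Fx φ 2)ˣ) = v⁻¹ := by rw [hv]; exact e2
        have h8 : s2 (dg (u 2 : (Fx φ 2)ˣ)) = (s2 (dg v))⁻¹ := by
          rw [h7, ← map_inv, ← Cfsg.Agent.OddHalf.NI.Mult.dg_inv]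
        rw [← h8, hs2]
        rfl
      have k3 : t 3 (dg (u 3)) = s3 (dg v) := by
        rw [hs3, hv]
        rfl
      rw [k0, k1, k2, k3, one_mul, one_mul]
      have h8 : Commute (s2 (dg v)) (s3 (dg v)) := hc23
      exact h8.inv_left.eq
    exact ⟨_, _, h9.trans h6⟩
  · push Not at hcom
    obtain ⟨i, j, hij, a, b, hab⟩ := hcom
    obtain ⟨ζ, hζ⟩ : ∃ ζ, t i (dg a) * t j (dg b) * (t i (dg a))⁻¹ * (t j (dg b))⁻¹ = ζ := ⟨_, rfl⟩
    have hζ1 : π ζ = 1 := by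
      have h5 := Cfsg.Agent.H958.TS.TwCommon.T_comm (π (t i (dg a)))
        (Cfsg.Agent.OddHalf.NI.Mult.dg_mem_T R' C' i a) (π (t j (dg b)))
        (Cfsg.Agent.OddHalf.NI.Mult.dg_mem_T R' C' j b)
      rw [← hζ, map_mul, map_mul, map_mul, map_inv, map_inv, h5]
      group
    have hζ2 : ζ ≠ 1 := by
      intro h5
      apply hab
      rw [h5] at hζ
      have h6 := mul_inv_eq_one.1 hζ
      exact mul_inv_eq_iff_eq_mul.1 h6
    have h5 : Nat.card π.ker = 3 := by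
      rcases (Nat.dvd_prime Nat.prime_three).1 h3 with h4 | h4
      · exfalso
        have h6 := Subgroup.card_eq_one.1 h4
        have h7 : ζ ∈ π.ker := hζ1
        rw [h6, Subgroup.mem_bot] at h7
        exact hζ2 h7
      · exact h4
    have h6 : (⟨x, hx⟩ : π.ker) ∈ Subgroup.zpowers (⟨ζ, hζ1⟩ : π.ker) :=
      mem_zpowers_of_prime_card h5 (fun h => hζ2 (congrArg Subtype.val h))
    obtain ⟨n, hn⟩ := h6
    have h7 : ζ ^ n = x := congrArg Subtype.val hn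
    exact ⟨t i (dg a) ^ n, t j (dg b), by rw [← h7]; exact zpow_comm hζ (hc hζ1) n⟩

end Cfsg.Agent.H231.QS.TwCen
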