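import Cfsg.Agent.H6.QO.Frame
import Cfsg.Agent.H928.Ore.TwAll
import Cfsg.Agent.H231.QS.TwCen
import Cfsg.Agent.S2108

/-!
**The row `²E₆(q)`, `q ≡ 2 mod 3`** of Ore's theorem for quasisimple groups (S2491, S2492, piece C4).

* `allC_three` : every element of a perfect central extension of `²E₆(q)`, `q ≡ 2 mod 3`, with kernel of order 1 or 3 is a
  commutator (`q = 2` included);
* `rowA_twistedE6` : the row, `q ≠ 2`.
-/

set_option autoImplicit false

namespace Cfsg.Agent.H231.QS.Row2E6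

open Cfsg.Lie
open Cfsg.Agent.H51.Mult (PCE)
open Cfsg.Agent.H777.Ore (AllC IsC)
open Cfsg.Agent.H6.QO (RowA)
open Cfsg.Agent.Nodes.RGDFoldSL (Fx)
open Cfsg.Agent.H194.Ore (M3)

universe u v

theorem m3_all {K : Type u} [Field K] [Fintype K] {q : ℕ} (hq : IsPrimePow q) (hK : Fintype.card K = q ^ 2)
    (h23 : q % 3 = 2) (φ : K →+* K) (hφ : ∀ t, φ t = t ^ q) : M3 (Fx φ 1) := by
  have hc := Cfsg.Agent.H928.Ore.TwFin.card_Fx hq.one_lt hK hφ
  by_cases h2 : q = 2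
  · exact Cfsg.Agent.H928.Ore.TwFin.m3_small (Or.inl (by rw [hc, h2]))
  · refine Cfsg.Agent.H928.Ore.TwAll.m3 _ ?_
    rw [hc]
    have := hq.one_lt
    omega

/-- **Kernels of order 1 and 3.** -/
theorem allC_three {K : Type u} [Field K] [Fintype K] {q : ℕ} (hq : IsPrimePow q) (hK : Fintype.card K = q ^ 2)
    (h23 : q % 3 = 2) {E : Type v} [Group E] [Finite E] {π : E →* ↥(twistedE6 K q)} (hπ : PCE π)
    (h3 : Nat.card π.ker ∣ 3) : AllC E := by
  intro x
  by_cases hx : x ∈ π.ker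
  · exact Cfsg.Agent.H231.QS.TwCen.central hq hK h23 hπ.surj hπ.cen h3 hπ.perf hx
  · have : Fact (Nat.Prime 3) := ⟨Nat.prime_three⟩
    have h3' : IsPGroup 3 π.ker := by
      rcases (Nat.dvd_prime Nat.prime_three).1 h3 with h4 | h4
      · exact IsPGroup.of_card (n := 0) (by rw [h4, pow_zero])
      · exact IsPGroup.of_card (n := 1) (by rw [h4, pow_one])
    exact Cfsg.Agent.H231.QS.Tw.noncentral hq hK h23 (m3_all hq hK h23) hπ.surj hπ.cen h3' hπ.perf hx

/-- **The row `²E₆(q)`, `q ≡ 2 mod 3`, `q ≠ 2`.** -/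
theorem rowA_twistedE6 {K : Type u} [Field K] [Fintype K] {q : ℕ} (hq : IsPrimePow q) (hK : Fintype.card K = q ^ 2)
    (h23 : q % 3 = 2) (h2 : q ≠ 2) : RowA ↥(twistedE6 K q) := by
  intro L _ _ π hπ
  have e : ULift.{u} L ≃* L := MulEquiv.ulift
  have hπ' := hπ.comp_equiv e
  refine Cfsg.Agent.H777.Ore.AllC.of_surjective e.toMonoidHom e.surjective (allC_three hq hK h23 hπ' ?_)
  have hm := Cfsg.Agent.S2108.result hq hK h2
  have hg : Nat.gcd 3 (q + 1) = 3 := Nat.gcd_eq_left (by omega)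
  rw [hg] at hm
  obtain ⟨f, hf⟩ := hm.2 (ULift.{u} L) (π.comp e.toMonoidHom) ⟨hπ'.surj, hπ'.cen, by rw [hπ'.perf]; exact le_top⟩
  have h4 := Subgroup.card_dvd_of_surjective f hf
  have h5 : Nat.card (Multiplicative (ZMod 3)) = 3 := by
    rw [Nat.card_congr Multiplicative.toAdd, Nat.card_zmod]
  rwa [h5] at h4

end Cfsg.Agent.H231.QS.Row2E6
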