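import Cfsg.Agent.H928.Ore.TwFin
import Cfsg.Agent.H231.QS.Lift
import Cfsg.Agent.S0248

/-!
Central extensions of `²E₆(q)` by 3-groups, `q ≡ 2 mod 3` (S2491, S2492, piece C4).

* `lo_g`, `up_g`, `g_LJ` : the block in the cover;
* `real` : the reality in the cover;
* `noncentral` : every element outside the kernel is a commutator.
-/

set_option autoImplicit false
set_option linter.unusedSectionVars false

namespace Cfsg.Agent.H231.QS.Tw

open CoxeterSystem Cfsg.Agent.ChevalleyStructure.CoxeterGeom Cfsg.Agent.Tits.Roots Cfsg.Agent.Tits.Core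
  Cfsg.Agent.Nodes Cfsg.Agent.Nodes.Reps Cfsg.Agent.Nodes.BNOf Cfsg.Agent.Nodes.RGDLib Cfsg.Agent.Nodes.Bruhat
  Cfsg.Agent.Nodes.OppDec Cfsg.Agent.Nodes.LeviDec Cfsg.Agent.Nodes.StabComb Cfsg.Agent.Nodes.KindChev
  Cfsg.Agent.Nodes.ChevCls Cfsg.Agent.Nodes.RGDLift
  Cfsg.Agent.OddHalf.NI.ModelChev
  Cfsg.Agent.H162.GaussDec Cfsg.Agent.H162.GaussLevi Cfsg.Agent.H162.GaussSL Cfsg.Agent.H162.GaussReg
  Cfsg.Agent.H928.Ore.Frame Cfsg.Agent.H928.Ore.Fix Cfsg.Agent.H928.Ore.Block Cfsg.Agent.H928.Ore.TwE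
  Cfsg.Agent.H928.Ore.TwS Cfsg.Agent.H928.Ore.TwF Cfsg.Agent.H928.Ore.TwN Cfsg.Agent.H928.Ore.TwRow
open Cfsg.Lie Cfsg.Agent.ChevalleyStructure Cfsg.Agent.ChevalleyStructure.Elts
  Cfsg.Agent.ChevalleyStructure.NPerm
  Cfsg.Agent.ChevalleyStructure.CoxeterGeomTypes Cfsg.Agent.Nodes.RGDChev Cfsg.Agent.KFacts.RgdChevCoord
open Cfsg.Agent.Nodes.RGDTwGen Cfsg.Agent.Nodes.RGDFold Cfsg.Agent.Nodes.RGDTwE6
open Cfsg.Agent.Nodes.RGDFoldSL (Fx mem_Fx)
open Cfsg.Agent.H162.GaussExcMain (r6 rt6 exists_hom_D w6)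
open Cfsg.Agent.H162.GaussPQ (tv_mem_UT tv_mem_LT)
open Cfsg.Agent.H335.Sr
open Cfsg.Agent.H194.Ore (M3)
open Cfsg.Agent.H231.QS.Lift

universe u

section

variable {K : Type u} [Field K] [Fintype K] {φ : K →+* K} {q : ℕ} (hφ : ∀ t, φ t = t ^ q)
  (hqq : ∀ t : K, (t ^ q) ^ q = t)
  {P : Matrix.SpecialLinearGroup (Fin 3) K →* ↥(chevE6.group K)}
  (hP : ∀ a b (hab : a ≠ b) c, P (Matrix.SpecialLinearGroup.transvection hab c) =
      xc RGDTwE6.hp (vec chevE6 6 (r6 a b)) (((1 : ℤ) : K) * c))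
  {f : Matrix.SpecialLinearGroup (Fin 3) (Fx φ 1) →* ↥(twistedE6 K q)}
  (hf : ∀ A, inc K q (f A) = P (Matrix.SpecialLinearGroup.map (Fx φ 1).subtype A))
  {E : Type*} [Group E] [Finite E] {π : E →* ↥(twistedE6 K q)} {p : ℕ} [Fact p.Prime] (h0 : (p : K) = 0)
  (hc : π.ker ≤ Subgroup.center E) (hk : (Nat.card π.ker).Coprime p)
  {g : Matrix.SpecialLinearGroup (Fin 3) (Fx φ 1) →* E} (hg : ∀ A, π (g A) = f A)
  {W : Type*} [Group W] (cs : CoxeterSystem CoxeterMatrix.F₄ W)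

include h0 in
omit [Fintype K] in
theorem cast_zero : ((p : ℕ) : Fx φ 1) = 0 := Subtype.ext (by
  rw [Subring.coe_natCast, ZeroMemClass.coe_zero]
  exact h0)

include hφ hqq hP hf h0 hc hk hg

/-- the lifted root groups of the block -/
theorem lft_eq_g {z : Fin 4 → ℤ} (hz : IsRoot cs RGDTwE6.isCartan z) (h2 : ∀ k, k ∉ JR → z k = 0) :
    ∃ a b : Fin 3, ∃ hab : a ≠ b, (a < b → ∃ k, 0 < z k) ∧ (b < a → ∃ k, z k < 0) ∧
      ∀ y ∈ lft p π (RGDTwE6.X φ q z), ∃ c : Fx φ 1, y = g (Matrix.SpecialLinearGroup.transvection hab c) := by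
  obtain ⟨a, b, hab, h3, h4, h5⟩ := X_eq_f hφ hqq hP hf cs hz h2
  refine ⟨a, b, hab, h3, h4, fun y hy => ?_⟩
  have hp' : IsPGroup p ↥(RGDTwE6.X φ q z : Subgroup ↥(twistedE6 K q)) := by
    rintro ⟨x, hx⟩
    obtain ⟨c, rfl⟩ := h5 x hx
    refine ⟨1, Subtype.ext ?_⟩
    change (f (Matrix.SpecialLinearGroup.transvection hab c)) ^ p ^ 1 = 1
    rw [pow_one, ← map_pow, tv_pow (cast_zero h0), map_one]
  obtain ⟨h6, k, h7⟩ := (mem_lft hc hp').1 hy
  obtain ⟨c, hc'⟩ := h5 _ h6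
  refine ⟨c, eq_of_pow hc hk (by rw [hc', hg]) h7 (l := 1) ?_⟩
  rw [pow_one, ← map_pow, tv_pow (cast_zero h0), map_one]

theorem up_g : UJ cs RGDTwE6.isCartan (fun x => lft p π (RGDTwE6.X φ q x)) JR ≤ (UT 3 (Fx φ 1)).map g := by
  refine RGD.Sup_le fun z hz => ?_
  obtain ⟨a, b, hab, -, h2, h3⟩ := lft_eq_g hφ hqq hP hf h0 hc hk hg cs hz.1 hz.2.2
  have hlt : a < b := by
    rcases lt_or_gt_of_ne hab with h | h
    · exact h
    · obtain ⟨k, hk⟩ := h2 h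
      exact absurd (hz.2.1 k) (not_le.2 hk)
  intro y hy
  obtain ⟨c, rfl⟩ := h3 y hy
  exact ⟨_, tv_mem_UT hab hlt _, rfl⟩

theorem lo_g : UNJ cs RGDTwE6.isCartan (fun x => lft p π (RGDTwE6.X φ q x)) JR ≤ (LT 3 (Fx φ 1)).map g := by
  refine RGD.Sup_le fun z hz => ?_
  have hz' : IsRoot cs RGDTwE6.isCartan z := by
    have := hz.1.neg
    rwa [_root_.neg_neg] at this
  obtain ⟨a, b, hab, h1, -, h3⟩ := lft_eq_g hφ hqq hP hf h0 hc hk hg cs hz' (fun k hk => by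
    have := hz.2.2 k hk
    simpa using this)
  have hlt : b < a := by
    rcases lt_or_gt_of_ne hab with h | h
    · obtain ⟨k, hk⟩ := h1 h
      have h3 : 0 ≤ - z k := hz.2.1 k
      omega
    · exact h
  intro y hy
  obtain ⟨c, rfl⟩ := h3 y hy
  exact ⟨_, tv_mem_LT hab hlt _, rfl⟩

omit hk hc in
theorem g_LJ (A : Matrix.SpecialLinearGroup (Fin 3) (Fx φ 1)) :
    g A ∈ LJ cs RGDTwE6.isCartan ((T K q).comap π) (fun x => lft p π (RGDTwE6.X φ q x)) JR := by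
  have h1 : (⊤ : Subgroup (Matrix.SpecialLinearGroup (Fin 3) (Fx φ 1))) ≤
      (LJ cs RGDTwE6.isCartan ((T K q).comap π) (fun x => lft p π (RGDTwE6.X φ q x)) JR).comap g := by
    rw [← Cfsg.Agent.LieClassical.SLGen.closure_transvections, Subgroup.closure_le]
    rintro _ ⟨a, b, hab, c, rfl⟩
    change g _ ∈ LJ cs RGDTwE6.isCartan ((T K q).comap π) (fun x => lft p π (RGDTwE6.X φ q x)) JR
    refine X_le_LJ (X := fun x => lft p π (RGDTwE6.X φ q x)) (J := JR) (x := V chevE6 J (r6 a b))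
      ⟨RGDTwComE6.isRoot_V (rlt a b hab), fun k hk => ?_⟩ ?_
    · have hk' : k = 2 ∨ k = 3 := by
        have h : ∀ k : Fin 4, ¬ (k = 0 ∨ k = 1) → k = 2 ∨ k = 3 := by decide
        exact h k hk
      rcases hk' with rfl | rfl
      · exact (V_r6 a b hab).1
      · exact (V_r6 a b hab).2
    · refine Subgroup.subset_closure ⟨?_, 1, ?_⟩
      · rw [hg]
        exact f_X hφ hqq hP hf hab c
      · rw [pow_one, ← map_pow, tv_pow (cast_zero h0), map_one]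
  exact h1 (Subgroup.mem_top A)

end

section

variable {K : Type u} [Field K] [Fintype K] {φ : K →+* K} {q : ℕ} (hφ : ∀ t, φ t = t ^ q)
  (hqq : ∀ t : K, (t ^ q) ^ q = t)
  {P : Matrix.SpecialLinearGroup (Fin 3) K →* ↥(chevE6.group K)}
  (hP : ∀ a b (hab : a ≠ b) c, P (Matrix.SpecialLinearGroup.transvection hab c) =
      xc RGDTwE6.hp (vec chevE6 6 (r6 a b)) (((1 : ℤ) : K) * c))
  {f : Matrix.SpecialLinearGroup (Fin 3) (Fx φ 1) →* ↥(twistedE6 K q)}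
  (hf : ∀ A, inc K q (f A) = P (Matrix.SpecialLinearGroup.map (Fx φ 1).subtype A))
  {l : Kˣ} {s : ↥(twistedE6 K q)} (hs : inc K q s = s0 l)
  {E : Type*} [Group E] [Finite E] {π : E →* ↥(twistedE6 K q)} (hsur : Function.Surjective π)
  (hc : π.ker ≤ Subgroup.center E) (h3 : IsPGroup 3 π.ker)
  {g : Matrix.SpecialLinearGroup (Fin 3) (Fx φ 1) →* E} (hg : ∀ A, π (g A) = f A) {s' : E} (hs' : π s' = s)

include hc hg

omit [Fintype K] [Finite E] in
/-- conjugation -/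
theorem conj_g {y : E} {τ : Matrix.SpecialLinearGroup (Fin 3) (Fx φ 1) →* Matrix.SpecialLinearGroup (Fin 3) (Fx φ 1)}
    (h : ∀ A, π y * f A * (π y)⁻¹ = f (τ A)) (A : Matrix.SpecialLinearGroup (Fin 3) (Fx φ 1)) :
    y * g A * y⁻¹ = g (τ A) := by
  have h1 : (MulAut.conj y).toMonoidHom.comp g = g.comp τ := by
    refine hom_eq (Cfsg.Agent.S0248.result 3 le_rfl) hc fun A => ?_
    change π (y * g A * y⁻¹) = π (g (τ A))
    rw [map_mul, map_mul, map_inv, hg, hg, h]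
  exact DFunLike.congr_fun h1 A

include hP hf hs hs'

omit [Finite E] in
theorem s_comm_g (A : Matrix.SpecialLinearGroup (Fin 3) (Fx φ 1)) : s' * g A = g A * s' := by
  have h1 := conj_g hc hg (y := s') (τ := MonoidHom.id _) (fun A => by
    rw [hs', s_comm hP hf hs A]
    change f A * s * s⁻¹ = f A
    group) A
  change s' * g A * s'⁻¹ = g A at h1
  calc s' * g A = (s' * g A * s'⁻¹) * s' := by group
    _ = _ := by rw [h1]

include hφ hqq hsur h3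

/-- the reality in the cover -/
theorem real (hZ : Subgroup.center ↥(chevE6.group K) = ⊥) {X : Matrix.SpecialLinearGroup (Fin 3) (Fx φ 1)}
    (hX : Irreducible (X : Matrix (Fin 3) (Fin 3) (Fx φ 1)).charpoly) :
    ∃ y : E, y * s' * y⁻¹ = s' ∧ y * g X * y⁻¹ = (g X)⁻¹ := by
  obtain ⟨z, Z⟩ := exists_z hφ hqq hZ
  obtain ⟨d, hd, hz⟩ := z_f hP hf Z
  obtain ⟨H, hH, hXH, hdet⟩ := exists_symm X.1 hX (∏ a, d a)
  obtain ⟨S, g1, g2⟩ := exists_S hd X hH hXH hdet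
  have hzz : z * z = 1 := by
    apply inc_injective q
    rw [map_mul, map_one]
    exact Z.sq
  have hzs : z * s * z⁻¹ = s := by
    apply inc_injective q
    rw [map_mul, map_mul, map_inv, hs]
    exact z_s0 Z l
  obtain ⟨z', hz'⟩ := hsur z
  have h4 := conj_g hc hg (y := z') (τ := tau d hd) (fun A => by rw [hz']; exact hz A)
  -- `z' s' z'⁻¹ = s'`
  have h5 : z' * s' * z'⁻¹ = s' := by
    obtain ⟨ζ, hζ⟩ : ∃ ζ, ζ = s'⁻¹ * (z' * s' * z'⁻¹) := ⟨_, rfl⟩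
    have hζ1 : π ζ = 1 := by
      rw [hζ, map_mul, map_inv, map_mul, map_mul, map_inv, hz', hs', hzs, inv_mul_cancel]
    have hζc : ∀ x, x * ζ = ζ * x := Subgroup.mem_center_iff.1 (hc hζ1)
    have e1 : z' * s' * z'⁻¹ = s' * ζ := by rw [hζ]; group
    have hz2 : ∀ x, x * (z' * z') = z' * z' * x := Subgroup.mem_center_iff.1 (hc (by
      rw [MonoidHom.mem_ker, map_mul, hz', hzz]))
    have e2 : s' = s' * (ζ * ζ) := by
      calc s' = (s' * (z' * z')) * (z' * z')⁻¹ := by group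
        _ = z' * (z' * s' * z'⁻¹) * z'⁻¹ := by rw [hz2]; group
        _ = z' * s' * (ζ * z'⁻¹) := by rw [e1]; group
        _ = z' * s' * z'⁻¹ * ζ := by rw [← hζc]; group
        _ = s' * (ζ * ζ) := by rw [e1]; group
    have e3 : ζ * ζ = 1 := (left_eq_mul.1 e2)
    obtain ⟨k, hk⟩ := h3 ⟨ζ, hζ1⟩
    have hk' : ζ ^ 3 ^ k = 1 := by simpa using congrArg Subtype.val hk
    have e4 : ζ ^ 2 = 1 := by rw [pow_two]; exact e3
    have hcp : (2 : ℕ).Coprime (3 ^ k) := Nat.Coprime.pow_right k (by norm_num)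
    have e5 : orderOf ζ ∣ 1 := by
      rw [← hcp]
      exact Nat.dvd_gcd (orderOf_dvd_of_pow_eq_one e4) (orderOf_dvd_of_pow_eq_one hk')
    have e6 : ζ = 1 := orderOf_eq_one_iff.1 (Nat.dvd_one.1 e5)
    rw [e1, e6, mul_one]
  have hsg := s_comm_g hP hf hs hc hg hs'
  refine ⟨z' * g S, ?_, ?_⟩
  · calc (z' * g S) * s' * (z' * g S)⁻¹ = z' * (g S * s') * (g S)⁻¹ * z'⁻¹ := by group
      _ = z' * s' * z'⁻¹ := by rw [← hsg]; group
      _ = s' := h5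
  · have h6 := h4 (S * X * S⁻¹)
    rw [g2, map_inv, map_mul, map_mul, map_inv] at h6
    rw [← h6]
    group

end

/-- **Elements outside the kernel.** -/
theorem noncentral {K : Type u} [Field K] [Fintype K] {q : ℕ} (hq : IsPrimePow q) (hK : Fintype.card K = q ^ 2)
    (h23 : q % 3 = 2) (hm3 : ∀ φ : K →+* K, (∀ t, φ t = t ^ q) → M3 (Fx φ 1))
    {E : Type*} [Group E] [Finite E] {π : E →* ↥(twistedE6 K q)} (hsur : Function.Surjective π)
    (hc : π.ker ≤ Subgroup.center E) (h3 : IsPGroup 3 π.ker) (hE : commutator E = ⊤) {x : E} (hx : x ∉ π.ker) :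
    ∃ a b : E, x = a * b * a⁻¹ * b⁻¹ := by
  obtain ⟨φ, hφ, hqq⟩ := TwE6Basic.exists_frob hq hK
  obtain ⟨p, hpc⟩ := CharP.exists K
  have : Fact p.Prime := ⟨(CharP.char_is_prime_or_zero K p).resolve_right (CharP.char_ne_zero_of_finite K p)⟩
  have : Fact (Nat.Prime 3) := ⟨Nat.prime_three⟩
  have h0 : (p : K) = 0 := CharP.cast_eq_zero K p
  have hp3 : p ≠ 3 := by
    rintro rfl
    have h1 : 3 ∣ Fintype.card K := by
      rw [← CharP.cast_eq_zero_iff K 3]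
      exact Nat.cast_card_eq_zero K
    rw [hK] at h1
    have h2 := Nat.prime_three.dvd_of_dvd_pow h1
    omega
  have hfin : Finite (GL chevE6.Idx K) := by
    have : Finite (Matrix chevE6.Idx chevE6.Idx K) := inferInstance
    infer_instance
  have : Finite ↥(twistedE6 K q) := inferInstance
  have hZ := Cfsg.Agent.Nodes.ChevChart.center_eq_bot (Cfsg.Agent.S1054.result (F := K) chevE6 (by simp))
  have R := RGDTwE6.rgd CoxeterMatrix.F₄.toCoxeterSystem hφ hqq p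
  have : Finite CoxeterMatrix.F₄.Group := Cfsg.Agent.Nodes.RGDFold.finite_W (hp := RGDTwE6.hp)
    CoxeterMatrix.F₄.toCoxeterSystem RGDTwE6.isCartan RGDTwE6.foldData
  have hS := Cfsg.Agent.S1070.result hq hK
  have := hS.1
  obtain ⟨P, hP⟩ := exists_hom_D RGDTwE6.hp (K := K) (ε := 1) (by norm_num) rt6.1 rt6.2.1 rt6.2.2.1 rt6.2.2.2
  obtain ⟨f, hf⟩ := exists_f hφ hqq hP
  obtain ⟨l, hl, h1, h2⟩ := exists_norm_one hφ hq.one_lt hK
  obtain ⟨s, hs⟩ := exists_inc hφ hqq (sgY_s0 hl)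
  have hs' : inc K q s⁻¹ = s0 l⁻¹ := by rw [map_inv, hs, s0_inv]
  have h1' : l⁻¹ ≠ 1 := by rwa [ne_eq, inv_eq_one]
  have h2' : l⁻¹ * l⁻¹ ≠ 1 := by
    rw [← mul_inv, ne_eq, inv_eq_one]
    exact h2
  -- the cover
  have hker : (Nat.card π.ker).Coprime p := by
    obtain ⟨k, hk⟩ := IsPGroup.iff_card.1 h3
    rw [hk]
    exact Nat.Coprime.pow_left k ((Nat.coprime_primes Fact.out Fact.out).2 (Ne.symm hp3))
  have hcardF : Nat.card (Fx φ 1) % 3 = 2 := by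
    rw [Cfsg.Agent.H928.Ore.TwFin.card_Fx hq.one_lt hK hφ]
    exact h23
  obtain ⟨g, hg0⟩ := Cfsg.Agent.H231.QS.Lift.exists_lift (p := p) (r := 3) hp3 hsur hc h3 f
    (closure_pow (cast_zero h0)) (fun P => cyc_three (cast_zero h0) hp3 hcardF P)
  have hg : ∀ A, π (g A) = f A := fun A => DFunLike.congr_fun hg0 A
  have hn : ∃ n' : Fin 4 → E, ∀ i, π (n' i) = RGDTwE6.nn hφ i := by
    choose n' hn' using fun i => hsur (RGDTwE6.nn hφ i)
    exact ⟨n', hn'⟩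
  obtain ⟨n', hn'⟩ := hn
  have R' := rgd_lift hc hker hsur R hn'
  have hG := RGDTwE6.G1_eq_top CoxeterMatrix.F₄.toCoxeterSystem hφ hqq
  have hG' := Cfsg.Agent.OddHalf.NI.Mult.G1_lift R hG hsur hc hker hE
  have C := Cfsg.Agent.H958.TS.TwCommon.coordP hφ hqq
  have hch : ∀ i : Fin 4, ((p : ℕ) : Fx φ ((Cfsg.Agent.Nodes.RGDTwNode.E6.rest i).length + 1)) = 0 := fun i =>
    Subtype.ext (by
      rw [Subring.coe_natCast, ZeroMemClass.coe_zero]
      exact h0)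
  have hlift : ∀ i, ∃ s' : Matrix.SpecialLinearGroup (Fin 2) (Fx φ ((Cfsg.Agent.Nodes.RGDTwNode.E6.rest i).length + 1))
      →* E, π.comp s' = Cfsg.Agent.H958.TS.TwCommon.P hφ hqq i := fun i =>
    Cfsg.Agent.H231.QS.Lift.exists_lift (p := p) (r := 3) hp3 hsur hc h3 _ (closure_pow (hch i))
      (fun P => cyc_two (hch i) hp3 P)
  choose t ht using hlift
  have C' := Cfsg.Agent.OddHalf.NI.Mult.coord_lift R C hc hker ht
  have hM := Cfsg.Agent.Nodes.ChevChart.irr_of Cfsg.Agent.Nodes.ChevChart.irrF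
  obtain ⟨u, hu⟩ := hsur s
  have hu' : π u⁻¹ = s⁻¹ := by rw [map_inv, hu]
  have hsg := s_comm_g hP hf hs hc hg hu
  have hsg' := s_comm_g hP hf hs' hc hg hu'
  have hVJ : VJ CoxeterMatrix.F₄.toCoxeterSystem RGDTwE6.isCartan (fun x => lft p π (RGDTwE6.X φ q x)) JR ≤
      lft p π (VJ CoxeterMatrix.F₄.toCoxeterSystem RGDTwE6.isCartan (RGDTwE6.X φ q) JR) :=
    RGD.Sup_le fun z hz => lft_mono p π (RGD.le_Sup hz)
  have hVNJ : VNJ CoxeterMatrix.F₄.toCoxeterSystem RGDTwE6.isCartan (fun x => lft p π (RGDTwE6.X φ q x)) JR ≤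
      lft p π (VNJ CoxeterMatrix.F₄.toCoxeterSystem RGDTwE6.isCartan (RGDTwE6.X φ q) JR) :=
    RGD.Sup_le fun z hz => lft_mono p π (RGD.le_Sup hz)
  -- the pairs
  have hb : ∀ v ∈ UNJ CoxeterMatrix.F₄.toCoxeterSystem RGDTwE6.isCartan (fun x => lft p π (RGDTwE6.X φ q x)) JR,
      ∀ w ∈ UJ CoxeterMatrix.F₄.toCoxeterSystem RGDTwE6.isCartan (fun x => lft p π (RGDTwE6.X φ q x)) JR,
      ∃ c₁ c₂, v * w = c₁ * c₂ ∧
        LP CoxeterMatrix.F₄.toCoxeterSystem RGDTwE6.isCartan ((T K q).comap π)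
          (fun x => lft p π (RGDTwE6.X φ q x)) JR c₁ c₂ ∧
        ∃ y, c₂ = y * c₁⁻¹ * y⁻¹ := by
    intro v hv w hw
    obtain ⟨L, hL, rfl⟩ := lo_g hφ hqq hP hf h0 hc hker hg _ hv
    obtain ⟨U, hU, rfl⟩ := up_g hφ hqq hP hf h0 hc hker hg _ hw
    obtain ⟨X, Y, hXY, hX, hY, hcp⟩ := hm3 φ hφ L hL U hU
    have huT : u ∈ LJ CoxeterMatrix.F₄.toCoxeterSystem RGDTwE6.isCartan ((T K q).comap π)
        (fun x => lft p π (RGDTwE6.X φ q x)) JR := T_le_LJ (by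
      rw [Subgroup.mem_comap, hu]
      exact s_T hs)
    obtain ⟨y, hy1, hy2⟩ := real hφ hqq hP hf hs hsur hc h3 hg hu hZ hX
    refine ⟨u * g X, u⁻¹ * g Y, ?_, ⟨mul_mem huT (g_LJ hφ hqq hP hf h0 hg _ X),
      mul_mem (inv_mem huT) (g_LJ hφ hqq hP hf h0 hg _ Y),
      nf_lift hc hker (isPGroup_VNJ R JR) hVNJ ?_, nf_lift hc hker (isPGroup_VJ R JR) hVJ ?_⟩, ?_⟩
    · rw [← map_mul, hXY, map_mul, hsg]
      group
    · rw [map_mul, hu, hg]
      exact (s_nf hφ hqq hP hf h1 h2 hs _ hX).2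
    · rw [map_mul, hu', hg]
      exact (s_nf hφ hqq hP hf h1' h2' hs' _ hY).1
    · rcases hcp with hcp | hcp
      · obtain ⟨k, hk⟩ := Cfsg.Agent.H150.MF.exists_conj (Cfsg.Agent.H150.MF.cls_of_irreducible hX)
          (Cfsg.Agent.H150.MF.cls_of_irreducible hY) hcp.symm
        refine ⟨g k * y⁻¹, ?_⟩
        have e6 : y⁻¹ * u⁻¹ * y = u⁻¹ := by
          have : y⁻¹ * u * y = u := by
            calc y⁻¹ * u * y = y⁻¹ * (y * u * y⁻¹) * y := by rw [hy1]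
              _ = u := by group
          calc y⁻¹ * u⁻¹ * y = (y⁻¹ * u * y)⁻¹ := by group
            _ = u⁻¹ := by rw [this]
        have e7 : y⁻¹ * (g X)⁻¹ * y = g X := by
          rw [← hy2]; group
        calc u⁻¹ * g Y = u⁻¹ * g k * g X * (g k)⁻¹ := by rw [hk, map_mul, map_mul, map_inv]; group
          _ = g k * (u⁻¹ * g X) * (g k)⁻¹ := by rw [hsg' k]; group
          _ = g k * ((y⁻¹ * u⁻¹ * y) * (y⁻¹ * (g X)⁻¹ * y)) * (g k)⁻¹ := by rw [e6, e7]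
          _ = (g k * y⁻¹) * (g X * u)⁻¹ * (g k * y⁻¹)⁻¹ := by
            have e8 : u⁻¹ * (g X)⁻¹ = (g X * u)⁻¹ := by group
            rw [← e8]; group
          _ = _ := by rw [← hsg]
      · have hXi : Irreducible ((X⁻¹ : Matrix.SpecialLinearGroup (Fin 3) (Fx φ 1)) :
            Matrix (Fin 3) (Fin 3) (Fx φ 1)).charpoly := by
          rw [← hcp]
          exact hY
        obtain ⟨k, hk⟩ := Cfsg.Agent.H150.MF.exists_conj (Cfsg.Agent.H150.MF.cls_of_irreducible hXi)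
          (Cfsg.Agent.H150.MF.cls_of_irreducible hY) hcp.symm
        refine ⟨g k, ?_⟩
        calc u⁻¹ * g Y = (u⁻¹ * g k) * (g X)⁻¹ * (g k)⁻¹ := by
              rw [hk, map_mul, map_mul, map_inv, map_inv]; group
          _ = g k * (g X * u)⁻¹ * (g k)⁻¹ := by rw [hsg']; group
          _ = _ := by rw [← hsg]
  exact comm R' hG' C' hM (J := JR) hb fun h => hx (Cfsg.Agent.H162.GaussMain.core_le_ker R' π hsur hc h)

end Cfsg.Agent.H231.QS.Tw
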